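import Mathlib
import Cfsg.Agent.Lib.Helper30.Coprime

/-!
# Coprime action: invariant classes of `G` correspond to classes of the centraliser (Isaacs 13.10)
-/

set_option autoImplicit false

namespace Cfsg.Agent.Lib.Helper77

open Subgroup

/-- a copy of `Γ` on which `Γ` acts by conjugation -/
def CjSet (Γ : Type*) := Γ

/-- constructor -/
def CjSet.mk {Γ : Type*} (x : Γ) : CjSet Γ := x

/-- underlying element -/
def CjSet.val {Γ : Type*} (x : CjSet Γ) : Γ := x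

instance cjSetAction (Γ : Type*) [Group Γ] : MulAction Γ (CjSet Γ) where
  smul a x := CjSet.mk (a * x.val * a⁻¹)
  one_smul x := by
    have h : ∀ y : Γ, (1 * y * 1⁻¹ : Γ) = y := fun y => by simp
    exact h x
  mul_smul a b x := by
    have h : ∀ y : Γ, ((a * b) * y * (a * b)⁻¹ : Γ) = a * (b * y * b⁻¹) * a⁻¹ := fun y => by group
    exact h x

theorem cjSet_smul_def {Γ : Type*} [Group Γ] (a : Γ) (x : Γ) :
    a • (CjSet.mk x) = CjSet.mk (a * x * a⁻¹) := rfl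

theorem card_inv_classes {Γ : Type*} [Group Γ] [Finite Γ] (G S : Subgroup Γ)
    (hSG : S ≤ Subgroup.normalizer (G : Set Γ)) (hcop : (Nat.card G).Coprime (Nat.card S))
    (hsolv : Group.IsSolvable S ∨ Group.IsSolvable G)
    (C : Subgroup Γ) (hC : C = G ⊓ Subgroup.centralizer (S : Set Γ)) :
    Nat.card {K : ConjClasses G // ∀ s ∈ S, ∀ g g' : G, (g' : Γ) = s * g * s⁻¹ →
      ConjClasses.mk g = K → ConjClasses.mk g' = K} = Nat.card (ConjClasses C) := by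
  have hCG : C ≤ G := hC.le.trans inf_le_left
  have hCS : ∀ c ∈ C, ∀ s ∈ S, s * c * s⁻¹ = c := by
    intro c hc s hs
    have := mem_centralizer_iff.1 (mem_inf.1 (hC.le hc)).2 s hs
    rw [this]; group
  symm
  refine Nat.card_congr (Equiv.ofBijective (fun L : ConjClasses C =>
    (⟨ConjClasses.map (Subgroup.inclusion hCG) L, ?_⟩ :
      {K : ConjClasses G // ∀ s ∈ S, ∀ g g' : G, (g' : Γ) = s * g * s⁻¹ →
      ConjClasses.mk g = K → ConjClasses.mk g' = K})) ⟨?_, ?_⟩)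
  · obtain ⟨c, rfl⟩ := ConjClasses.exists_rep L
    intro s hs g g' hg hK
    have hK' : IsConj g (Subgroup.inclusion hCG c) := ConjClasses.mk_eq_mk_iff_isConj.1 hK
    obtain ⟨x, hx⟩ := isConj_iff.1 hK'
    apply ConjClasses.mk_eq_mk_iff_isConj.2
    have hsx : s * x * s⁻¹ ∈ G := (mem_normalizer_iff.1 (hSG hs) x).1 x.2
    refine isConj_iff.2 ⟨⟨s * x * s⁻¹, hsx⟩, ?_⟩
    apply Subtype.ext
    have hx' : (x : Γ) * g * (x : Γ)⁻¹ = c := congrArg Subtype.val hx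
    show s * x * s⁻¹ * (g' : Γ) * (s * x * s⁻¹)⁻¹ = c
    rw [hg, ← hCS c c.2 s hs, ← hx']
    group
  · intro L L' h
    obtain ⟨c, rfl⟩ := ConjClasses.exists_rep L
    obtain ⟨c', rfl⟩ := ConjClasses.exists_rep L'
    have h1 : ConjClasses.mk (Subgroup.inclusion hCG c) = ConjClasses.mk (Subgroup.inclusion hCG c') :=
      congrArg Subtype.val h
    obtain ⟨k, hk⟩ := isConj_iff.1 (ConjClasses.mk_eq_mk_iff_isConj.1 h1)
    have hk' : (k : Γ) * c * (k : Γ)⁻¹ = c' := congrArg Subtype.val hk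
    obtain ⟨z, hz, hzc⟩ := Cfsg.Agent.Lib.Helper30.glauberman_unique (X := CjSet Γ) hSG hcop.symm hsolv
      (CjSet.mk (c : Γ)) (fun a ha => hCS c c.2 a ha) k.2 (fun a ha => by
        show (a * ((k : Γ) * c * (k : Γ)⁻¹) * a⁻¹ : Γ) = (k : Γ) * c * (k : Γ)⁻¹
        rw [hk']; exact hCS c' c'.2 a ha)
    have hzc' : z * (c : Γ) * z⁻¹ = (k : Γ) * c * (k : Γ)⁻¹ := hzc
    apply ConjClasses.mk_eq_mk_iff_isConj.2
    refine isConj_iff.2 ⟨⟨z, hC ▸ hz⟩, ?_⟩
    apply Subtype.ext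
    show z * (c : Γ) * z⁻¹ = c'
    rw [hzc', hk']
  · rintro ⟨K, hK⟩
    obtain ⟨g, rfl⟩ := ConjClasses.exists_rep K
    obtain ⟨k, hk, hfix⟩ := Cfsg.Agent.Lib.Helper30.glauberman_exists (X := CjSet Γ) hSG hcop.symm hsolv
      (CjSet.mk (g : Γ)) (fun a ha => by
        have hm : a * (g : Γ) * a⁻¹ ∈ G := (mem_normalizer_iff.1 (hSG ha) g).1 g.2
        have := hK a ha g ⟨_, hm⟩ rfl rfl
        obtain ⟨x, hx⟩ := isConj_iff.1 (ConjClasses.mk_eq_mk_iff_isConj.1 this).symm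
        exact ⟨x, x.2, (congrArg Subtype.val hx).symm⟩)
    have hfix' : ∀ a ∈ S, a * (k * (g : Γ) * k⁻¹) * a⁻¹ = k * (g : Γ) * k⁻¹ := hfix
    have hcG : k * (g : Γ) * k⁻¹ ∈ G := G.mul_mem (G.mul_mem hk g.2) (G.inv_mem hk)
    have hcC : k * (g : Γ) * k⁻¹ ∈ C := by
      rw [hC]
      refine mem_inf.2 ⟨hcG, ?_⟩
      rw [mem_centralizer_iff]
      intro a ha
      have := hfix' a ha
      calc a * (k * (g : Γ) * k⁻¹) = (a * (k * (g : Γ) * k⁻¹) * a⁻¹) * a := by group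
        _ = k * (g : Γ) * k⁻¹ * a := by rw [this]
    refine ⟨ConjClasses.mk ⟨_, hcC⟩, ?_⟩
    apply Subtype.ext
    apply ConjClasses.mk_eq_mk_iff_isConj.2
    refine (isConj_iff.2 ⟨⟨k, hk⟩, ?_⟩).symm
    apply Subtype.ext
    rfl

end Cfsg.Agent.Lib.Helper77
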