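import Mathlib
import Cfsg.Agent.Lib.Helper77.GlaubSolv
import Cfsg.Agent.Lib.Helper77.GlaubClass
import Cfsg.Agent.Lib.Helper77.GlaubPGroup
import Cfsg.Agent.Lib.Helper4.CharConj
import Cfsg.Agent.S0160

/-!
# Real invariant characters and classes under a coprime `p`-group action
-/

set_option autoImplicit false
set_option linter.unusedSectionVars false

namespace Cfsg.Agent.Lib.Helper77

open Subgroup Cfsg Cfsg.Agent.Lib.Helper20 Cfsg.Agent.Lib.Helper19 Cfsg.Agent.Lib.Helper79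
  Cfsg.Agent.Lib.Helper5
open scoped ComplexConjugate

variable {Γ : Type*} [Group Γ] [Finite Γ]

/-- complex conjugate of an irreducible character -/
noncomputable def cbar {X : Type*} [Group X] [Finite X] (χ : IrrCharacter X) : IrrCharacter X :=
  ⟨fun x => conj ((χ : X → ℂ) x), Cfsg.Agent.Lib.Helper4.isIrrCharacter_conj χ.2⟩

theorem cbar_eq_iff {X : Type*} [Group X] [Finite X] (χ : IrrCharacter X) :
    cbar χ = χ ↔ ∀ x, ((χ : X → ℂ) x).im = 0 := by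
  constructor
  · intro h x
    have := congrFun (congrArg Subtype.val h) x
    exact Complex.conj_eq_iff_im.1 this
  · intro h
    apply Subtype.ext
    funext x
    exact Complex.conj_eq_iff_im.2 (h x)

theorem PCorr.cbar {p : ℕ} {G B : Subgroup Γ} [Fintype B] {hBG : B ≤ G} {χ : IrrCharacter G}
    {η : IrrCharacter B} (h : PCorr p hBG (χ : G → ℂ) η) :
    PCorr p hBG (Cfsg.Agent.Lib.Helper77.cbar χ : G → ℂ) (Cfsg.Agent.Lib.Helper77.cbar η) := by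
  obtain ⟨m, hm, hpm⟩ := h
  refine ⟨m, ?_, hpm⟩
  have h1 : classInner (fun c : B => conj ((χ : G → ℂ) ⟨c, hBG c.2⟩)) (fun c => conj ((η : B → ℂ) c)) =
      conj (classInner (fun c : B => (χ : G → ℂ) ⟨c, hBG c.2⟩) (η : B → ℂ)) := by
    unfold classInner
    rw [map_mul, map_sum, map_inv₀, Complex.conj_natCast]
    simp only [map_mul]
  show classInner (fun c : B => conj ((χ : G → ℂ) ⟨c, hBG c.2⟩)) (fun c => conj ((η : B → ℂ) c)) = m
  rw [h1, hm, Complex.conj_natCast]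

theorem invUnder_cbar {G : Subgroup Γ} {s : Γ} {χ : IrrCharacter G} (h : InvUnder G s (χ : G → ℂ)) :
    InvUnder G s (cbar χ : G → ℂ) := by
  intro g g' hg
  show conj ((χ : G → ℂ) g') = conj ((χ : G → ℂ) g)
  rw [h g g' hg]

/-- the correspondence preserves reality -/
theorem Glaub.card_real_eq {p : ℕ} [hp : Fact p.Prime] {G T B : Subgroup Γ} [Fintype B]
    {hBG : B ≤ G} (h : Glaub p G T B hBG) :
    Nat.card {χ : IrrCharacter G // (∀ g, ((χ : G → ℂ) g).im = 0) ∧ ∀ s ∈ T, InvUnder G s (χ : G → ℂ)} =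
      Nat.card {η : IrrCharacter B // ∀ b, ((η : B → ℂ) b).im = 0} := by
  have hex : ∀ χ : {χ : IrrCharacter G // (∀ g, ((χ : G → ℂ) g).im = 0) ∧
      ∀ s ∈ T, InvUnder G s (χ : G → ℂ)}, ∃ η : IrrCharacter B, PCorr p hBG (χ.1 : G → ℂ) η :=
    fun χ => h.exists_pcorr χ.1 χ.2.2
  choose f hf using hex
  refine Nat.card_congr (Equiv.ofBijective
    (fun χ => (⟨f χ, ?_⟩ : {η : IrrCharacter B // ∀ b, ((η : B → ℂ) b).im = 0})) ⟨?_, ?_⟩)
  · rw [← cbar_eq_iff]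
    have h1 := (hf χ).cbar
    rw [(cbar_eq_iff χ.1).2 χ.2.1] at h1
    exact h.pcorr_unique χ.1 χ.2.2 h1 (hf χ)
  · intro χ χ' he
    have he' : f χ = f χ' := congrArg Subtype.val he
    apply Subtype.ext
    apply h.inj χ.1 χ'.1 χ.2.2 χ'.2.2 (f χ) (hf χ)
    rw [he']
    exact hf χ'
  · rintro ⟨η, hη⟩
    obtain ⟨χ, hχT, hc⟩ := h.surj η
    have hreal : cbar χ = χ := by
      have h1 := hc.cbar
      rw [(cbar_eq_iff η).2 hη] at h1
      exact h.inj _ _ (fun s hs => invUnder_cbar (hχT s hs)) hχT η h1 hc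
    refine ⟨⟨χ, (cbar_eq_iff χ).1 hreal, hχT⟩, ?_⟩
    apply Subtype.ext
    exact h.pcorr_unique χ hχT (hf ⟨χ, (cbar_eq_iff χ).1 hreal, hχT⟩) hc

section Classes

variable (G S : Subgroup Γ) (hSG : S ≤ Subgroup.normalizer (G : Set Γ))
  (hcop : (Nat.card G).Coprime (Nat.card S)) (hsolv : Group.IsSolvable S ∨ Group.IsSolvable G)
  (C : Subgroup Γ) (hC : C = G ⊓ Subgroup.centralizer (S : Set Γ))

include hC in
theorem conj_fixed_of_mem : ∀ c ∈ C, ∀ s ∈ S, s * c * s⁻¹ = c := by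
  intro c hc s hs
  have := mem_centralizer_iff.1 (mem_inf.1 (hC.le hc)).2 s hs
  rw [this]; group

include hSG hcop hsolv hC

/-- elements of `C` that are `G`-conjugate are `C`-conjugate -/
theorem conj_in_fixed (c c' : Γ) (hc : c ∈ C) (hc' : c' ∈ C) (k : Γ) (hk : k ∈ G)
    (hk' : k * c * k⁻¹ = c') : ∃ z ∈ C, z * c * z⁻¹ = c' := by
  have hCS := conj_fixed_of_mem G S C hC
  obtain ⟨z, hz, hzc⟩ := Cfsg.Agent.Lib.Helper30.glauberman_unique (X := CjSet Γ) hSG hcop.symm hsolv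
    (CjSet.mk (c : Γ)) (fun a ha => hCS c hc a ha) hk (fun a ha => by
      show (a * ((k : Γ) * c * (k : Γ)⁻¹) * a⁻¹ : Γ) = (k : Γ) * c * (k : Γ)⁻¹
      rw [hk']; exact hCS c' hc' a ha)
  have hzc' : z * (c : Γ) * z⁻¹ = (k : Γ) * c * (k : Γ)⁻¹ := hzc
  exact ⟨z, hC ▸ hz, by rw [hzc', hk']⟩

/-- an `S`-invariant class of `G` meets `C` -/
theorem inv_class_meets (g : Γ) (hg : g ∈ G)
    (hK : ∀ a ∈ S, ∃ x ∈ G, a * g * a⁻¹ = x * g * x⁻¹) : ∃ k ∈ G, k * g * k⁻¹ ∈ C := by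
  obtain ⟨k, hk, hfix⟩ := Cfsg.Agent.Lib.Helper30.glauberman_exists (X := CjSet Γ) hSG hcop.symm hsolv
    (CjSet.mk (g : Γ)) (fun a ha => hK a ha)
  have hfix' : ∀ a ∈ S, a * (k * (g : Γ) * k⁻¹) * a⁻¹ = k * (g : Γ) * k⁻¹ := hfix
  have hcG : k * (g : Γ) * k⁻¹ ∈ G := G.mul_mem (G.mul_mem hk hg) (G.inv_mem hk)
  refine ⟨k, hk, ?_⟩
  rw [hC]
  refine mem_inf.2 ⟨hcG, ?_⟩
  rw [mem_centralizer_iff]
  intro a ha
  have := hfix' a ha
  calc a * (k * (g : Γ) * k⁻¹) = (a * (k * (g : Γ) * k⁻¹) * a⁻¹) * a := by group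
    _ = k * (g : Γ) * k⁻¹ * a := by rw [this]

theorem card_real_inv_classes :
    Nat.card {K : ConjClasses G // (∀ k : G, ConjClasses.mk k = K → IsConj k k⁻¹) ∧
      ∀ k : G, ConjClasses.mk k = K → ∀ x ∈ S, ∀ k' : G, (k' : Γ) = x * (k : Γ) * x⁻¹ →
        ConjClasses.mk k' = K} =
      Nat.card {L : ConjClasses C // ∀ c : C, ConjClasses.mk c = L → IsConj c c⁻¹} := by
  have hCG : C ≤ G := hC.le.trans inf_le_left
  have hCS := conj_fixed_of_mem G S C hC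
  symm
  refine Nat.card_congr (Equiv.ofBijective
    (fun L : {L : ConjClasses C // ∀ c : C, ConjClasses.mk c = L → IsConj c c⁻¹} =>
    (⟨ConjClasses.map (Subgroup.inclusion hCG) L.1, ?_, ?_⟩ :
      {K : ConjClasses G // (∀ k : G, ConjClasses.mk k = K → IsConj k k⁻¹) ∧
      ∀ k : G, ConjClasses.mk k = K → ∀ x ∈ S, ∀ k' : G, (k' : Γ) = x * (k : Γ) * x⁻¹ →
        ConjClasses.mk k' = K})) ⟨?_, ?_⟩)
  · obtain ⟨L, hL⟩ := L
    obtain ⟨c, rfl⟩ := ConjClasses.exists_rep L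
    intro k hk
    have h1 : IsConj k (Subgroup.inclusion hCG c) := ConjClasses.mk_eq_mk_iff_isConj.1 hk
    have h2 : IsConj (Subgroup.inclusion hCG c) (Subgroup.inclusion hCG c)⁻¹ := by
      have := (Subgroup.inclusion hCG).map_isConj (hL c rfl)
      rwa [map_inv] at this
    have h3 : IsConj (Subgroup.inclusion hCG c)⁻¹ k⁻¹ := by
      obtain ⟨x, hx⟩ := isConj_iff.1 h1.symm
      refine isConj_iff.2 ⟨x, ?_⟩
      rw [← hx]; group
    exact h1.trans (h2.trans h3)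
  · obtain ⟨L, hL⟩ := L
    obtain ⟨c, rfl⟩ := ConjClasses.exists_rep L
    intro g hK s hs g' hg
    have hK' : IsConj g (Subgroup.inclusion hCG c) := ConjClasses.mk_eq_mk_iff_isConj.1 hK
    obtain ⟨x, hx⟩ := isConj_iff.1 hK'
    apply ConjClasses.mk_eq_mk_iff_isConj.2
    have hsx : s * x * s⁻¹ ∈ G := (mem_normalizer_iff.1 (hSG hs) x).1 x.2
    refine isConj_iff.2 ⟨⟨s * x * s⁻¹, hsx⟩, ?_⟩
    apply Subtype.ext
    have hx' : (x : Γ) * g * (x : Γ)⁻¹ = c := congrArg Subtype.val hx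
    show s * x * s⁻¹ * (g' : Γ) * (s * x * s⁻¹)⁻¹ = c
    rw [hg, ← hCS c c.2 s hs, ← hx']
    group
  · rintro ⟨L, hL⟩ ⟨L', hL'⟩ h
    obtain ⟨c, rfl⟩ := ConjClasses.exists_rep L
    obtain ⟨c', rfl⟩ := ConjClasses.exists_rep L'
    have h1 : ConjClasses.mk (Subgroup.inclusion hCG c) = ConjClasses.mk (Subgroup.inclusion hCG c') :=
      congrArg Subtype.val h
    obtain ⟨k, hk⟩ := isConj_iff.1 (ConjClasses.mk_eq_mk_iff_isConj.1 h1)
    have hk' : (k : Γ) * c * (k : Γ)⁻¹ = c' := congrArg Subtype.val hk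
    obtain ⟨z, hz, hzc⟩ := conj_in_fixed G S hSG hcop hsolv C hC c c' c.2 c'.2 k k.2 hk'
    apply Subtype.ext
    apply ConjClasses.mk_eq_mk_iff_isConj.2
    exact isConj_iff.2 ⟨⟨z, hz⟩, Subtype.ext hzc⟩
  · rintro ⟨K, hK1, hK2⟩
    obtain ⟨g, rfl⟩ := ConjClasses.exists_rep K
    obtain ⟨k, hk, hkC⟩ := inv_class_meets G S hSG hcop hsolv C hC g g.2 (fun a ha => by
        have hm : a * (g : Γ) * a⁻¹ ∈ G := (mem_normalizer_iff.1 (hSG ha) g).1 g.2
        have := hK2 g rfl a ha ⟨_, hm⟩ rfl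
        obtain ⟨x, hx⟩ := isConj_iff.1 (ConjClasses.mk_eq_mk_iff_isConj.1 this).symm
        exact ⟨x, x.2, (congrArg Subtype.val hx).symm⟩)
    have hconj : IsConj g (⟨k * (g : Γ) * k⁻¹, hCG hkC⟩ : G) :=
      isConj_iff.2 ⟨⟨k, hk⟩, Subtype.ext rfl⟩
    have hreal : ∀ c : C, ConjClasses.mk c = ConjClasses.mk (⟨_, hkC⟩ : C) → IsConj c c⁻¹ := by
      intro c hc
      have h1 : IsConj c (⟨_, hkC⟩ : C) := ConjClasses.mk_eq_mk_iff_isConj.1 hc
      have h2 : IsConj (Subgroup.inclusion hCG c) g :=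
        ((Subgroup.inclusion hCG).map_isConj h1).trans hconj.symm
      have h3 := hK1 (Subgroup.inclusion hCG c) (ConjClasses.mk_eq_mk_iff_isConj.2 h2)
      obtain ⟨y, hy⟩ := isConj_iff.1 h3
      have hy' : (y : Γ) * c * (y : Γ)⁻¹ = (c : Γ)⁻¹ := congrArg Subtype.val hy
      obtain ⟨z, hz, hzc⟩ := conj_in_fixed G S hSG hcop hsolv C hC c (c : Γ)⁻¹ c.2 (C.inv_mem c.2)
        y y.2 hy'
      exact isConj_iff.2 ⟨⟨z, hz⟩, Subtype.ext hzc⟩
    refine ⟨⟨ConjClasses.mk ⟨_, hkC⟩, hreal⟩, ?_⟩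
    apply Subtype.ext
    apply ConjClasses.mk_eq_mk_iff_isConj.2
    exact hconj.symm

end Classes

end Cfsg.Agent.Lib.Helper77
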