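import Mathlib
import Cfsg.Agent.Lib.Helper77.GlaubPGroup

/-!
# Images of subgroups of an ambient group under a homomorphism defined on a subgroup `M`
(used with `M = N_Γ(Q)` and the projection onto `M/Q`)
-/

set_option autoImplicit false
set_option linter.unusedSectionVars false

namespace Cfsg.Agent.Lib.Helper77

open Subgroup Cfsg

section Bar

variable {Γ Γ' : Type*} [Group Γ] [Group Γ'] {M : Subgroup Γ} (μ : M →* Γ')

/-- image of `A ∩ M` under `μ` -/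
def bar (A : Subgroup Γ) : Subgroup Γ' := (A.subgroupOf M).map μ

theorem mem_bar {A : Subgroup Γ} {y : Γ'} : y ∈ bar μ A ↔ ∃ m : M, (m : Γ) ∈ A ∧ μ m = y := by
  simp only [bar, mem_map, mem_subgroupOf]

/-- the restriction of `μ` to `A ≤ M`, onto its image -/
def barHom (A : Subgroup Γ) (hA : A ≤ M) : A →* bar μ A :=
  (μ.comp (inclusion hA)).codRestrict (bar μ A)
    (fun a => (mem_bar μ).2 ⟨inclusion hA a, a.2, rfl⟩)

theorem barHom_coe {A : Subgroup Γ} (hA : A ≤ M) (a : A) :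
    ((barHom μ A hA a : bar μ A) : Γ') = μ ⟨a, hA a.2⟩ := rfl

theorem barHom_surj {A : Subgroup Γ} (hA : A ≤ M) : Function.Surjective (barHom μ A hA) := by
  rintro ⟨y, hy⟩
  obtain ⟨m, hm, rfl⟩ := (mem_bar μ).1 hy
  exact ⟨⟨m, hm⟩, Subtype.ext rfl⟩

theorem bar_mono {A B : Subgroup Γ} (h : A ≤ B) : bar μ A ≤ bar μ B := by
  intro y hy
  obtain ⟨m, hm, rfl⟩ := (mem_bar μ).1 hy
  exact (mem_bar μ).2 ⟨m, h hm, rfl⟩

theorem barHom_inclusion {A B : Subgroup Γ} (h : A ≤ B) (hB : B ≤ M) (a : A) :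
    barHom μ B hB ⟨a, h a.2⟩ = ⟨barHom μ A (h.trans hB) a, bar_mono μ h (barHom μ A (h.trans hB) a).2⟩ :=
  Subtype.ext rfl

theorem bar_le_normalizer {A P : Subgroup Γ} (hPA : P ≤ normalizer (A : Set Γ)) :
    bar μ P ≤ normalizer (bar μ A : Set Γ') := by
  apply le_normalizer_of_norm
  intro s hs g hg
  obtain ⟨x, hx, rfl⟩ := (mem_bar μ).1 hs
  obtain ⟨a, ha, rfl⟩ := (mem_bar μ).1 hg
  refine (mem_bar μ).2 ⟨x * a * x⁻¹, ?_, by simp⟩
  exact (mem_normalizer_iff.1 (hPA hx) _).1 ha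

theorem barHom_cjAut {A : Subgroup Γ} (hA : A ≤ M) (x : Γ) (hx : x ∈ M)
    (hxA : x ∈ normalizer (A : Set Γ)) (hx' : μ ⟨x, hx⟩ ∈ normalizer (bar μ A : Set Γ')) (a : A) :
    barHom μ A hA (cjAut A x hxA a) = cjAut (bar μ A) (μ ⟨x, hx⟩) hx' (barHom μ A hA a) := by
  apply Subtype.ext
  rw [cjAut_coe, barHom_coe, barHom_coe, ← map_inv, ← map_mul, ← map_mul]
  rfl

theorem isPGroup_bar {p : ℕ} {P : Subgroup Γ} (hP : IsPGroup p P) : IsPGroup p (bar μ P) :=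
  IsPGroup.map (hP.comap_subtype) μ

variable {Q : Subgroup Γ} (hμ : ∀ m : M, μ m = 1 ↔ (m : Γ) ∈ Q)

include hμ in
theorem barHom_eq_one_iff {A : Subgroup Γ} (hA : A ≤ M) (a : A) :
    barHom μ A hA a = 1 ↔ (a : Γ) ∈ Q := by
  rw [← hμ ⟨a, hA a.2⟩, ← barHom_coe μ hA a]
  exact ⟨fun h => by rw [h]; rfl, fun h => Subtype.ext h⟩

include hμ in
theorem card_bar {A : Subgroup Γ} (hA : A ≤ M) : Nat.card (bar μ A) = Q.relIndex A := by
  have h1 : (barHom μ A hA).ker = Q.subgroupOf A := by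
    ext a
    rw [MonoidHom.mem_ker, barHom_eq_one_iff μ hμ hA, mem_subgroupOf]
  rw [relIndex, ← h1, index_ker, MonoidHom.range_eq_top.2 (barHom_surj μ hA), card_top]

include hμ in
theorem bar_inf_centralizer {T P U : Subgroup Γ} (hP : P ≤ M)
    (hU : ∀ t, t ∈ U ↔ t ∈ T ∧ ∀ x ∈ P, x * t * x⁻¹ * t⁻¹ ∈ Q) :
    bar μ U = bar μ T ⊓ centralizer (bar μ P : Set Γ') := by
  ext y
  rw [mem_inf, mem_centralizer_iff]
  constructor
  · intro hy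
    obtain ⟨u, hu, rfl⟩ := (mem_bar μ).1 hy
    obtain ⟨h1, h2⟩ := (hU _).1 hu
    refine ⟨(mem_bar μ).2 ⟨u, h1, rfl⟩, ?_⟩
    intro h hh
    obtain ⟨x, hx, rfl⟩ := (mem_bar μ).1 hh
    have h3 : μ (x * u * x⁻¹ * u⁻¹) = 1 := (hμ _).2 (h2 x hx)
    simp only [map_mul, map_inv] at h3
    have h4 := mul_inv_eq_one.1 h3
    exact mul_inv_eq_iff_eq_mul.1 h4
  · rintro ⟨h1, h2⟩
    obtain ⟨t, ht, rfl⟩ := (mem_bar μ).1 h1
    refine (mem_bar μ).2 ⟨t, (hU _).2 ⟨ht, ?_⟩, rfl⟩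
    intro x hx
    have h3 := h2 (μ ⟨x, hP hx⟩) ((mem_bar μ).2 ⟨⟨x, hP hx⟩, hx, rfl⟩)
    have h4 : μ (⟨x, hP hx⟩ * t * ⟨x, hP hx⟩⁻¹ * t⁻¹) = 1 := by
      simp only [map_mul, map_inv]
      rw [h3]
      group
    exact (hμ _).1 h4

theorem invUnder_bar_iff {A P : Subgroup Γ} (hA : A ≤ M) (hP : P ≤ M)
    (hPA : P ≤ normalizer (A : Set Γ)) (β : bar μ A → ℂ) :
    (∀ s ∈ bar μ P, InvUnder (bar μ A) s β) ↔
      ∀ x ∈ P, InvUnder A x (fun a => β (barHom μ A hA a)) := by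
  constructor
  · intro h x hx a a' ha
    apply h (μ ⟨x, hP hx⟩) ((mem_bar μ).2 ⟨⟨x, hP hx⟩, hx, rfl⟩)
    rw [barHom_coe, barHom_coe, ← map_inv, ← map_mul, ← map_mul]
    congr 1
    exact Subtype.ext ha
  · intro h s hs g g' hg
    obtain ⟨x, hx, rfl⟩ := (mem_bar μ).1 hs
    obtain ⟨a, rfl⟩ := barHom_surj μ hA g
    have hm : (x : Γ) * a * (x : Γ)⁻¹ ∈ A := (mem_normalizer_iff.1 (hPA hx) _).1 a.2
    have e : g' = barHom μ A hA ⟨(x : Γ) * a * (x : Γ)⁻¹, hm⟩ := by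
      apply Subtype.ext
      rw [hg, barHom_coe, barHom_coe, ← map_inv, ← map_mul, ← map_mul]
      rfl
    rw [e]
    exact h x hx a _ rfl

end Bar

end Cfsg.Agent.Lib.Helper77
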