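import Mathlib
import Cfsg.Agent.Lib.Helper77.CliffRel
import Cfsg.Agent.Lib.Helper77.GallRel
import Cfsg.Agent.Lib.Helper77.BarQuot

/-!
# Characters over a fixed character `θ` of a normal subgroup `Q` which extends to its stabiliser:
`Irr(X | θ) ↔ Irr(X_θ / Q)` (Clifford + Gallagher), in relation form, ambient version.
-/

set_option autoImplicit false
set_option linter.unusedSectionVars false

namespace Cfsg.Agent.Lib.Helper77

open Subgroup Cfsg Cfsg.Agent.Lib.Helper20 Cfsg.Agent.Lib.Helper19 Cfsg.Agent.Lib.Helper79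
  Cfsg.Agent.Lib.Helper5
open scoped ComplexConjugate

variable {Γ Γ' : Type*} [Group Γ] [Group Γ'] [Finite Γ] [Finite Γ'] {M Q : Subgroup Γ}
  (μ : M →* Γ') (hμ : ∀ m : M, μ m = 1 ↔ (m : Γ) ∈ Q)

/-- `E · (β ∘ π)` -/
def Psi {T : Subgroup Γ} (hTM : T ≤ M) (E : T → ℂ) (β : bar μ T → ℂ) : T → ℂ :=
  fun t => E t * β (barHom μ T hTM t)

section Gall

variable [Fintype Q] {T : Subgroup Γ} [Fintype T] [Fintype (bar μ T)] (hQT : Q ≤ T)
  (hTQ : T ≤ normalizer (Q : Set Γ)) (hTM : T ≤ M) {θ : Q → ℂ} (hθ : IsIrrCharacter Q θ)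
  {E : T → ℂ} (hE : IsIrrCharacter T E) (hEθ : ∀ q : Q, E ⟨q, hQT q.2⟩ = θ q)

include hθ hEθ in
theorem psi_aux : IsIrrCharacter (Q.subgroupOf T) (fun n : Q.subgroupOf T => E n) := by
  have : (fun n : Q.subgroupOf T => E n) = θ ∘ subgroupOfEquivOfLe hQT := by
    funext n
    exact hEθ (subgroupOfEquivOfLe hQT n)
  rw [this]
  exact isIrrCharacter_comp_equiv _ hθ

include hμ hTQ hθ hE hEθ in
theorem psi_inner (a b : bar μ T → ℂ) :
    classInner (Psi μ hTM E a) (Psi μ hTM E b) = classInner a b := by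
  have : Fintype (Q.subgroupOf T) := Fintype.ofFinite _
  have hN : (Q.subgroupOf T).Normal := normal_subgroupOf_of_le_normalizer hTQ
  exact gall_inner (Q.subgroupOf T) hE (psi_aux hQT hθ hEθ) (barHom μ T hTM) (barHom_surj μ hTM)
    (fun t => by rw [barHom_eq_one_iff μ hμ hTM, mem_subgroupOf]) a b

include hμ hTQ hθ hE hEθ in
theorem psi_irr {β : bar μ T → ℂ} (hβ : IsIrrCharacter (bar μ T) β) :
    IsIrrCharacter T (Psi μ hTM E β) := by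
  have : Fintype (Q.subgroupOf T) := Fintype.ofFinite _
  have hN : (Q.subgroupOf T).Normal := normal_subgroupOf_of_le_normalizer hTQ
  exact gall_irr (Q.subgroupOf T) hE (psi_aux hQT hθ hEθ) (barHom μ T hTM) (barHom_surj μ hTM)
    (fun t => by rw [barHom_eq_one_iff μ hμ hTM, mem_subgroupOf]) hβ

include hμ hTQ hθ hE hEθ in
theorem psi_inj {β β' : bar μ T → ℂ} (hβ : IsIrrCharacter (bar μ T) β)
    (hβ' : IsIrrCharacter (bar μ T) β') (h : Psi μ hTM E β = Psi μ hTM E β') : β = β' := by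
  have : Fintype (Q.subgroupOf T) := Fintype.ofFinite _
  have hN : (Q.subgroupOf T).Normal := normal_subgroupOf_of_le_normalizer hTQ
  exact gall_inj (Q.subgroupOf T) hE (psi_aux hQT hθ hEθ) (barHom μ T hTM) (barHom_surj μ hTM)
    (fun t => by rw [barHom_eq_one_iff μ hμ hTM, mem_subgroupOf]) hβ hβ' h

include hμ hθ hEθ in
theorem psi_over {β : bar μ T → ℂ} (hβ : IsIrrCharacter (bar μ T) β) :
    classInner (fun q : Q => Psi μ hTM E β ⟨q, hQT q.2⟩) θ ≠ 0 := by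
  have : (fun q : Q => Psi μ hTM E β ⟨q, hQT q.2⟩) = β 1 • θ := by
    funext q
    show E ⟨q, hQT q.2⟩ * β (barHom μ T hTM ⟨q, hQT q.2⟩) = β 1 * θ q
    rw [(barHom_eq_one_iff μ hμ hTM ⟨q, hQT q.2⟩).2 q.2, hEθ, mul_comm]
  rw [this, classInner_smul_left, classInner_irr_self hθ, mul_one]
  exact IsIrrCharacter.one_ne_zero hβ

include hμ hTQ hθ hE hEθ in
theorem psi_surj {ψ : T → ℂ} (hψ : IsIrrCharacter T ψ)
    (hov : classInner (fun q : Q => ψ ⟨q, hQT q.2⟩) θ ≠ 0) :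
    ∃ β : IrrCharacter (bar μ T), ψ = Psi μ hTM E (β : bar μ T → ℂ) := by
  have : Fintype (Q.subgroupOf T) := Fintype.ofFinite _
  have hN : (Q.subgroupOf T).Normal := normal_subgroupOf_of_le_normalizer hTQ
  have e : (fun n : Q.subgroupOf T => E n) = θ ∘ subgroupOfEquivOfLe hQT := by
    funext n
    exact hEθ (subgroupOfEquivOfLe hQT n)
  obtain ⟨β, h1, h2⟩ := gall_surj (Q.subgroupOf T) hE (psi_aux hQT hθ hEθ) (barHom μ T hTM)
    (barHom_surj μ hTM) (fun t => by rw [barHom_eq_one_iff μ hμ hTM, mem_subgroupOf]) hψ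
    (by rw [e, inner_subgroupOf hQT]; exact hov)
  exact ⟨⟨β, h1⟩, h2⟩

theorem psi_cj (β : bar μ T → ℂ) (x : Γ) (hx : x ∈ M) (hxT : x ∈ normalizer (T : Set Γ))
    (hx' : μ ⟨x, hx⟩ ∈ normalizer (bar μ T : Set Γ')) (hEx : InvUnder T x E) :
    Psi μ hTM E β ∘ cjAut T x hxT = Psi μ hTM E (β ∘ cjAut (bar μ T) (μ ⟨x, hx⟩) hx') := by
  funext t
  show E (cjAut T x hxT t) * β (barHom μ T hTM (cjAut T x hxT t)) = E t * β (cjAut _ _ hx' _)
  rw [barHom_cjAut μ hTM x hx hxT hx', (invUnder_iff T x hxT E).1 hEx]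

end Gall

section Pack

variable [Fintype Q] {X T : Subgroup Γ} [Fintype T] [Fintype (bar μ T)]
  (hQX : Q ≤ X) (hXQ : X ≤ normalizer (Q : Set Γ)) {θ : Q → ℂ} (hθ : IsIrrCharacter Q θ)
  (hT : T = X ⊓ stabSub Q θ) (hQT : Q ≤ T) (hTX : T ≤ X) (hTM : T ≤ M)
  {E : T → ℂ} (hE : IsIrrCharacter T E) (hEθ : ∀ q : Q, E ⟨q, hQT q.2⟩ = θ q)

/-- `χ ∈ Irr(X)` and `β ∈ Irr(X_θ/Q)` correspond -/
def TRel (hTX : T ≤ X) (hTM : T ≤ M) (E : T → ℂ) (χ : X → ℂ) (β : bar μ T → ℂ) : Prop :=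
  classInner (fun t : T => χ ⟨t, hTX t.2⟩) (Psi μ hTM E β) ≠ 0

include hμ hQX hXQ hθ hT hE hEθ

theorem trel_exists_down (χ : IrrCharacter X)
    (hov : classInner (fun q : Q => (χ : X → ℂ) ⟨q, hQX q.2⟩) θ ≠ 0) :
    ∃ β : IrrCharacter (bar μ T), TRel μ hTX hTM E (χ : X → ℂ) (β : bar μ T → ℂ) := by
  obtain ⟨ψ, h1, h2, -⟩ := cliffA_down hQX hXQ hθ hT hQT hTX χ.2 hov
  obtain ⟨β, hβ⟩ := psi_surj μ hμ hQT (hTX.trans hXQ) hTM hθ hE hEθ ψ.2 h1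
  refine ⟨β, ?_⟩
  unfold TRel
  rw [← hβ, h2]
  exact one_ne_zero

theorem trel_exists_up (β : IrrCharacter (bar μ T)) :
    ∃ χ : IrrCharacter X, TRel μ hTX hTM E (χ : X → ℂ) (β : bar μ T → ℂ) := by
  obtain ⟨χ, h1, -⟩ := cliffA_up hQX hXQ hθ hT hQT hTX
    (psi_irr μ hμ hQT (hTX.trans hXQ) hTM hθ hE hEθ β.2) (psi_over μ hμ hQT hTM hθ hEθ β.2)
  refine ⟨χ, ?_⟩
  unfold TRel
  rw [h1]
  exact one_ne_zero

theorem trel_over (χ : IrrCharacter X) (β : IrrCharacter (bar μ T))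
    (h : TRel μ hTX hTM E (χ : X → ℂ) (β : bar μ T → ℂ)) :
    classInner (fun q : Q => (χ : X → ℂ) ⟨q, hQX q.2⟩) θ ≠ 0 :=
  inner_res_ne_zero_trans hTX hQT (isCharacter_of_isIrrCharacter χ.2)
    ⟨_, psi_irr μ hμ hQT (hTX.trans hXQ) hTM hθ hE hEθ β.2⟩ hθ h
    (psi_over μ hμ hQT hTM hθ hEθ β.2)

/-- the Clifford correspondent is `Psi β`. -/
theorem trel_spec (χ : IrrCharacter X) (β : IrrCharacter (bar μ T))
    (h : TRel μ hTX hTM E (χ : X → ℂ) (β : bar μ T → ℂ)) :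
    classInner (fun t : T => (χ : X → ℂ) ⟨t, hTX t.2⟩) (Psi μ hTM E β) = 1 ∧
      ∀ ψ' : IrrCharacter T, classInner (fun n : Q => (ψ' : T → ℂ) ⟨n, hQT n.2⟩) θ ≠ 0 →
        classInner (fun t : T => (χ : X → ℂ) ⟨t, hTX t.2⟩) (ψ' : T → ℂ) ≠ 0 →
        (ψ' : T → ℂ) = Psi μ hTM E β := by
  obtain ⟨ψ, h1, h2, h3⟩ := cliffA_down hQX hXQ hθ hT hQT hTX χ.2
    (trel_over μ hμ hQX hXQ hθ hT hQT hTX hTM hE hEθ χ β h)
  have e := h3 ⟨_, psi_irr μ hμ hQT (hTX.trans hXQ) hTM hθ hE hEθ β.2⟩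
    (psi_over μ hμ hQT hTM hθ hEθ β.2) h
  have e' : Psi μ hTM E β = (ψ : T → ℂ) := congrArg Subtype.val e
  rw [e']
  exact ⟨h2, fun ψ' h4 h5 => congrArg Subtype.val (h3 ψ' h4 h5)⟩

theorem trel_unique_down (χ : IrrCharacter X) (β β' : IrrCharacter (bar μ T))
    (h : TRel μ hTX hTM E (χ : X → ℂ) (β : bar μ T → ℂ))
    (h' : TRel μ hTX hTM E (χ : X → ℂ) (β' : bar μ T → ℂ)) : β' = β := by
  obtain ⟨-, h2⟩ := trel_spec μ hμ hQX hXQ hθ hT hQT hTX hTM hE hEθ χ β h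
  have := h2 ⟨_, psi_irr μ hμ hQT (hTX.trans hXQ) hTM hθ hE hEθ β'.2⟩
    (psi_over μ hμ hQT hTM hθ hEθ β'.2) h'
  exact Subtype.ext (psi_inj μ hμ hQT (hTX.trans hXQ) hTM hθ hE hEθ β'.2 β.2 this)

theorem trel_unique_up (χ χ' : IrrCharacter X) (β : IrrCharacter (bar μ T))
    (h : TRel μ hTX hTM E (χ : X → ℂ) (β : bar μ T → ℂ))
    (h' : TRel μ hTX hTM E (χ' : X → ℂ) (β : bar μ T → ℂ)) : χ' = χ := by
  obtain ⟨χ₀, -, h2⟩ := cliffA_up hQX hXQ hθ hT hQT hTX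
    (psi_irr μ hμ hQT (hTX.trans hXQ) hTM hθ hE hEθ β.2) (psi_over μ hμ hQT hTM hθ hEθ β.2)
  rw [h2 χ h, h2 χ' h']

theorem trel_inv_iff {P : Subgroup Γ} (hPM : P ≤ M) (hPX : P ≤ normalizer (X : Set Γ))
    (hPT : P ≤ normalizer (T : Set Γ)) (hEP : ∀ x ∈ P, InvUnder T x E)
    (χ : IrrCharacter X) (β : IrrCharacter (bar μ T))
    (h : TRel μ hTX hTM E (χ : X → ℂ) (β : bar μ T → ℂ)) :
    (∀ x ∈ P, InvUnder X x (χ : X → ℂ)) ↔ ∀ s ∈ bar μ P, InvUnder (bar μ T) s (β : bar μ T → ℂ) := by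
  have hbn := bar_le_normalizer μ hPT
  constructor
  · intro hχ s hs
    obtain ⟨x, hx, rfl⟩ := (mem_bar μ).1 hs
    rw [← comp_cjAut_eq_iff _ (hbn hs)]
    have h1 : TRel μ hTX hTM E (χ : X → ℂ) ((β : bar μ T → ℂ) ∘ cjAut (bar μ T) (μ x) (hbn hs)) := by
      unfold TRel
      rw [← psi_cj μ hTM (β : bar μ T → ℂ) x x.2 (hPT hx) (hbn hs) (hEP x hx)]
      have e := inner_cj hTX (x : Γ) (hPX hx) (hPT hx) (χ : X → ℂ) (Psi μ hTM E β)
      rw [(comp_cjAut_eq_iff _ (hPX hx) _).2 (hχ x hx)] at e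
      rw [e]
      exact h
    have := trel_unique_down μ hμ hQX hXQ hθ hT hQT hTX hTM hE hEθ χ β
      ⟨_, isIrrCharacter_comp_equiv _ β.2⟩ h h1
    exact congrArg Subtype.val this
  · intro hβ x hx
    have hs : μ ⟨x, hPM hx⟩ ∈ bar μ P := (mem_bar μ).2 ⟨⟨x, hPM hx⟩, hx, rfl⟩
    rw [← comp_cjAut_eq_iff _ (hPX hx)]
    have h1 : TRel μ hTX hTM E ((χ : X → ℂ) ∘ cjAut X x (hPX hx)) (β : bar μ T → ℂ) := by
      unfold TRel
      have e := inner_cj hTX (x : Γ) (hPX hx) (hPT hx) (χ : X → ℂ) (Psi μ hTM E β)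
      rw [psi_cj μ hTM (β : bar μ T → ℂ) x (hPM hx) (hPT hx) (hbn hs) (hEP x hx),
        (comp_cjAut_eq_iff _ (hbn hs) _).2 (hβ _ hs)] at e
      rw [e]
      exact h
    have := trel_unique_up μ hμ hQX hXQ hθ hT hQT hTX hTM hE hEθ χ
      ⟨_, isIrrCharacter_comp_equiv _ χ.2⟩ β h h1
    exact congrArg Subtype.val this

end Pack

end Cfsg.Agent.Lib.Helper77
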