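import Mathlib
import Cfsg.Agent.Lib.Helper77.ThetaPack

/-!
# Multiplicities of restrictions through the Clifford-Gallagher parametrisation
-/

set_option autoImplicit false
set_option linter.unusedSectionVars false

namespace Cfsg.Agent.Lib.Helper77

open Subgroup Cfsg Cfsg.Agent.Lib.Helper20 Cfsg.Agent.Lib.Helper19 Cfsg.Agent.Lib.Helper79
  Cfsg.Agent.Lib.Helper5
open scoped ComplexConjugate

variable {Γ Γ' : Type*} [Group Γ] [Group Γ'] [Finite Γ] [Finite Γ'] {M Q : Subgroup Γ}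
  (μ : M →* Γ') (hμ : ∀ m : M, μ m = 1 ↔ (m : Γ) ∈ Q)

/-- restriction of an extension of `θ` to an intermediate subgroup is irreducible -/
theorem isIrr_res_ext {T U : Subgroup Γ} (hQU : Q ≤ U) (hUT : U ≤ T) {θ : Q → ℂ}
    (hθ : IsIrrCharacter Q θ) {E : T → ℂ} (hE : IsIrrCharacter T E)
    (hEθ : ∀ q : Q, E ⟨q, (hQU.trans hUT) q.2⟩ = θ q) :
    IsIrrCharacter U (fun u : U => E ⟨u, hUT u.2⟩) := by
  apply isIrr_of_comp_irr (inclusion hQU) (isCharacter_res hUT (isCharacter_of_isIrrCharacter hE))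
  have : (fun u : U => E ⟨u, hUT u.2⟩) ∘ (inclusion hQU) = θ := funext hEθ
  rw [this]
  exact hθ

variable [Fintype Q] {K C T U : Subgroup Γ} [Fintype T] [Fintype U] [Fintype C]
  [Fintype (bar μ T)] [Fintype (bar μ U)]
  (hQC : Q ≤ C) (hCK : C ≤ K) (hKQ : K ≤ normalizer (Q : Set Γ)) {θ : Q → ℂ}
  (hθ : IsIrrCharacter Q θ) (hT : T = K ⊓ stabSub Q θ) (hU : U = C ⊓ stabSub Q θ)
  (hQU : Q ≤ U) (hUT : U ≤ T) (hUC : U ≤ C) (hTK : T ≤ K) (hTM : T ≤ M)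
  {E : T → ℂ} (hE : IsIrrCharacter T E) (hEθ : ∀ q : Q, E ⟨q, (hQU.trans hUT) q.2⟩ = θ q)

include hμ hQC hKQ hθ hT hU hE hEθ in
theorem trel_formula (χ : IrrCharacter K) (β : IrrCharacter (bar μ T)) (ξ : IrrCharacter C)
    (γ : IrrCharacter (bar μ U)) (h1 : TRel μ hTK hTM E (χ : K → ℂ) (β : bar μ T → ℂ))
    (h2 : TRel μ hUC (hUT.trans hTM) (fun u : U => E ⟨u, hUT u.2⟩) (ξ : C → ℂ)
      (γ : bar μ U → ℂ)) :
    classInner (fun c : C => (χ : K → ℂ) ⟨c, hCK c.2⟩) (ξ : C → ℂ) =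
      classInner (fun y : bar μ U => (β : bar μ T → ℂ) ⟨y, bar_mono μ hUT y.2⟩)
        (γ : bar μ U → ℂ) := by
  classical
  have := finite_irrCharacter (G := T)
  have := Fintype.ofFinite (IrrCharacter T)
  have := finite_irrCharacter (G := C)
  have := Fintype.ofFinite (IrrCharacter C)
  have hχc := isCharacter_of_isIrrCharacter χ.2
  have hEU := isIrr_res_ext hQU hUT hθ hE hEθ
  have hCQ : C ≤ normalizer (Q : Set Γ) := hCK.trans hKQ
  have hEUθ : ∀ q : Q, (fun u : U => E ⟨u, hUT u.2⟩) ⟨q, hQU q.2⟩ = θ q := hEθ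
  have hψ := psi_irr μ hμ (hQU.trans hUT) (hTK.trans hKQ) hTM hθ hE hEθ β.2
  have hζ := psi_irr μ hμ hQU (hUC.trans hCQ) (hUT.trans hTM) hθ hEU hEUθ γ.2
  have hζo := psi_over μ hμ hQU (hUT.trans hTM) hθ (E := fun u : U => E ⟨u, hUT u.2⟩) hEUθ γ.2
  obtain ⟨a1, a2⟩ := trel_spec μ hμ (hQC.trans hCK) hKQ hθ hT (hQU.trans hUT) hTK hTM hE hEθ χ β h1
  obtain ⟨b1, -⟩ := trel_spec μ hμ hQC hCQ hθ hU hQU hUC (hUT.trans hTM) hEU hEUθ ξ γ h2
  set ζ := Psi μ (hUT.trans hTM) (fun u : U => E ⟨u, hUT u.2⟩) (γ : bar μ U → ℂ) with hζdef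
  have A : classInner (fun u : U => (χ : K → ℂ) ⟨u, (hUT.trans hTK) u.2⟩) ζ =
      classInner (fun u : U => Psi μ hTM E (β : bar μ T → ℂ) ⟨u, hUT u.2⟩) ζ := by
    rw [inner_res_expand hTK hUT hχc ζ, Finset.sum_eq_single ⟨_, hψ⟩]
    · rw [a1, one_mul]
    · intro ψ' _ hne
      by_cases c1 : classInner (fun t : T => (χ : K → ℂ) ⟨t, hTK t.2⟩) (ψ' : T → ℂ) = 0
      · rw [c1, zero_mul]
      by_cases c2 : classInner (fun u : U => (ψ' : T → ℂ) ⟨u, hUT u.2⟩) ζ = 0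
      · rw [c2, mul_zero]
      exfalso
      apply hne
      apply Subtype.ext
      exact a2 ψ' (inner_res_ne_zero_trans hUT hQU (isCharacter_of_isIrrCharacter ψ'.2) ⟨ζ, hζ⟩ hθ
        c2 hζo) c1
    · intro h; exact absurd (Finset.mem_univ _) h
  have B : classInner (fun u : U => (χ : K → ℂ) ⟨u, (hUC.trans hCK) u.2⟩) ζ =
      classInner (fun c : C => (χ : K → ℂ) ⟨c, hCK c.2⟩) (ξ : C → ℂ) := by
    rw [inner_res_expand hCK hUC hχc ζ, Finset.sum_eq_single ξ]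
    · rw [b1, mul_one]
    · intro ξ' _ hne
      by_cases c2 : classInner (fun u : U => (ξ' : C → ℂ) ⟨u, hUC u.2⟩) ζ = 0
      · rw [c2, mul_zero]
      exfalso
      exact hne (trel_unique_up μ hμ hQC hCQ hθ hU hQU hUC (hUT.trans hTM) hEU hEUθ ξ ξ' γ h2 c2)
    · intro h; exact absurd (Finset.mem_univ _) h
  have Cc : (fun u : U => Psi μ hTM E (β : bar μ T → ℂ) ⟨u, hUT u.2⟩) =
      Psi μ (hUT.trans hTM) (fun u : U => E ⟨u, hUT u.2⟩)
        (fun y : bar μ U => (β : bar μ T → ℂ) ⟨y, bar_mono μ hUT y.2⟩) := by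
    funext u
    show E ⟨u, hUT u.2⟩ * (β : bar μ T → ℂ) (barHom μ T hTM ⟨u, hUT u.2⟩) = _
    rw [barHom_inclusion μ hUT hTM u]
    rfl
  rw [← B]
  refine Eq.trans A ?_
  rw [Cc, hζdef, psi_inner μ hμ hQU (hUC.trans hCQ) (hUT.trans hTM) hθ hEU hEUθ]

end Cfsg.Agent.Lib.Helper77
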