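import Mathlib
import Cfsg.Agent.Lib.Helper77.ThetaForm

/-!
# The correspondence `Irr_P(K | θ) ↔ Irr_P(C | θ)` for a `P`-invariant `θ ∈ Irr(Q)`,
`Q` a normal Sylow `p`-subgroup of `K`, `C/Q = C_{K/Q}(P)`.
-/

set_option autoImplicit false
set_option linter.unusedSectionVars false

namespace Cfsg.Agent.Lib.Helper77

open Subgroup Cfsg Cfsg.Agent.Lib.Helper20 Cfsg.Agent.Lib.Helper19 Cfsg.Agent.Lib.Helper79
  Cfsg.Agent.Lib.Helper5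
open scoped ComplexConjugate

/-- the correspondence over a fixed `θ` -/
structure ThetaCorr {Γ : Type*} [Group Γ] (p : ℕ) (P K C Q : Subgroup Γ) [Fintype Q] [Fintype C]
    (hQC : Q ≤ C) (hCK : C ≤ K) (θ : Q → ℂ) : Prop where
  data : ∀ χ : IrrCharacter K, (∀ x ∈ P, InvUnder K x (χ : K → ℂ)) →
    classInner (fun q : Q => (χ : K → ℂ) ⟨q, (hQC.trans hCK) q.2⟩) θ ≠ 0 →
    ∃ ξ : IrrCharacter C, (∀ x ∈ P, InvUnder C x (ξ : C → ℂ)) ∧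
      classInner (fun q : Q => (ξ : C → ℂ) ⟨q, hQC q.2⟩) θ ≠ 0 ∧ ∃ ε : ℤ, (ε = 1 ∨ ε = -1) ∧
      ∀ ξ' : IrrCharacter C, classInner (fun q : Q => (ξ' : C → ℂ) ⟨q, hQC q.2⟩) θ ≠ 0 →
        ∃ m : ℕ, classInner (fun c : C => (χ : K → ℂ) ⟨c, hCK c.2⟩) (ξ' : C → ℂ) = m ∧
          (ξ' = ξ → (m : ZMod p) = (ε : ZMod p)) ∧ (ξ' ≠ ξ → (m : ZMod p) = 0)
  inj : ∀ χ χ' : IrrCharacter K, (∀ x ∈ P, InvUnder K x (χ : K → ℂ)) →
    (∀ x ∈ P, InvUnder K x (χ' : K → ℂ)) →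
    classInner (fun q : Q => (χ : K → ℂ) ⟨q, (hQC.trans hCK) q.2⟩) θ ≠ 0 →
    classInner (fun q : Q => (χ' : K → ℂ) ⟨q, (hQC.trans hCK) q.2⟩) θ ≠ 0 →
    ∀ ξ : IrrCharacter C, classInner (fun q : Q => (ξ : C → ℂ) ⟨q, hQC q.2⟩) θ ≠ 0 →
    PCorr p hCK (χ : K → ℂ) (ξ : C → ℂ) → PCorr p hCK (χ' : K → ℂ) (ξ : C → ℂ) → χ = χ'
  surj : ∀ ξ : IrrCharacter C, classInner (fun q : Q => (ξ : C → ℂ) ⟨q, hQC q.2⟩) θ ≠ 0 →
    ∃ χ : IrrCharacter K, (∀ x ∈ P, InvUnder K x (χ : K → ℂ)) ∧ PCorr p hCK (χ : K → ℂ) (ξ : C → ℂ)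

variable {Γ Γ' : Type*} [Group Γ] [Group Γ'] [Finite Γ] [Finite Γ'] {M Q : Subgroup Γ}
  (μ : M →* Γ') (hμ : ∀ m : M, μ m = 1 ↔ (m : Γ) ∈ Q)

include hμ in
theorem thetaCorr (p : ℕ) [hp : Fact p.Prime] (P K C : Subgroup Γ) [Fintype Q] [Fintype C]
    (hP : IsPGroup p P) (hPK : P ≤ normalizer (K : Set Γ)) (hPC : P ≤ normalizer (C : Set Γ))
    (hPQ : P ≤ normalizer (Q : Set Γ)) (hQC : Q ≤ C) (hCK : C ≤ K)
    (hKQ : K ≤ normalizer (Q : Set Γ)) (hKM : K ≤ M) (hPM : P ≤ M)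
    (hcop : (Nat.card Q).Coprime (Q.relIndex K)) (hpK : ¬ p ∣ Q.relIndex K)
    (hC : ∀ k : Γ, k ∈ C ↔ (k ∈ K ∧ ∀ x ∈ P, x * k * x⁻¹ * k⁻¹ ∈ Q))
    {θ : Q → ℂ} (hθ : IsIrrCharacter Q θ) (hθP : ∀ x ∈ P, InvUnder Q x θ) :
    ThetaCorr p P K C Q hQC hCK θ := by
  obtain ⟨T, hT⟩ : ∃ T, T = K ⊓ stabSub Q θ := ⟨_, rfl⟩
  obtain ⟨U, hU⟩ : ∃ U, U = C ⊓ stabSub Q θ := ⟨_, rfl⟩
  have : Fintype T := Fintype.ofFinite _
  have : Fintype U := Fintype.ofFinite _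
  have : Fintype (bar μ T) := Fintype.ofFinite _
  have : Fintype (bar μ U) := Fintype.ofFinite _
  have hQs : Q ≤ stabSub Q θ :=
    le_stabSub_self Q (isClassFunction_of_isCharacter (isCharacter_of_isIrrCharacter hθ))
  have hQK : Q ≤ K := hQC.trans hCK
  have hCQ : C ≤ normalizer (Q : Set Γ) := hCK.trans hKQ
  have hQT : Q ≤ T := by rw [hT]; exact le_inf hQK hQs
  have hQU : Q ≤ U := by rw [hU]; exact le_inf hQC hQs
  have hUT : U ≤ T := by rw [hU, hT]; exact inf_le_inf_right _ hCK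
  have hUC : U ≤ C := by rw [hU]; exact inf_le_left
  have hTK : T ≤ K := by rw [hT]; exact inf_le_left
  have hTs : T ≤ stabSub Q θ := by rw [hT]; exact inf_le_right
  have hTM : T ≤ M := hTK.trans hKM
  have hPs : P ≤ stabSub Q θ := fun x hx => ⟨hPQ hx, hθP x hx⟩
  have hPT : P ≤ normalizer (T : Set Γ) := by
    apply le_normalizer_of_norm
    intro x hx t ht
    rw [hT] at ht ⊢
    exact mem_inf.2 ⟨(mem_normalizer_iff.1 (hPK hx) _).1 (mem_inf.1 ht).1,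
      (stabSub Q θ).mul_mem ((stabSub Q θ).mul_mem (hPs hx) (mem_inf.1 ht).2)
        ((stabSub Q θ).inv_mem (hPs hx))⟩
  have hPU : P ≤ normalizer (U : Set Γ) := by
    apply le_normalizer_of_norm
    intro x hx t ht
    rw [hU] at ht ⊢
    exact mem_inf.2 ⟨(mem_normalizer_iff.1 (hPC hx) _).1 (mem_inf.1 ht).1,
      (stabSub Q θ).mul_mem ((stabSub Q θ).mul_mem (hPs hx) (mem_inf.1 ht).2)
        ((stabSub Q θ).inv_mem (hPs hx))⟩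
  have hdvd : Q.relIndex T ∣ Q.relIndex K := ⟨_, (relIndex_mul_relIndex Q T K hQT hTK).symm⟩
  -- the invariant extension
  have hN : (Q.subgroupOf T).Normal := normal_subgroupOf_of_le_normalizer (hTK.trans hKQ)
  obtain ⟨E, hE, hE2, hE3⟩ := exists_canon_ext (Q.subgroupOf T)
    (θ := θ ∘ subgroupOfEquivOfLe hQT) (isIrrCharacter_comp_equiv _ hθ)
    (fun g n => (hTs g.2).2 _ _ rfl) (by
      rw [Nat.card_congr (subgroupOfEquivOfLe hQT).toEquiv]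
      exact Nat.Coprime.coprime_dvd_right hdvd hcop)
  have hEθ : ∀ q : Q, E ⟨q, hQT q.2⟩ = θ q := fun q =>
    hE2 ⟨⟨q, hQT q.2⟩, mem_subgroupOf.2 q.2⟩
  have hEP : ∀ x ∈ P, InvUnder T x E := by
    intro x hx
    apply (comp_cjAut_eq_iff x (hPT hx) E).1
    apply hE3
    intro n
    refine ⟨mem_subgroupOf.2 ((mem_normalizer_iff.1 (hPQ hx) _).1 (mem_subgroupOf.1 n.2)), ?_⟩
    exact hθP x hx _ _ rfl
  have hEU := isIrr_res_ext hQU hUT hθ hE hEθ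
  have hEUθ : ∀ q : Q, (fun u : U => E ⟨u, hUT u.2⟩) ⟨q, hQU q.2⟩ = θ q := hEθ
  have hEUP : ∀ x ∈ P, InvUnder U x (fun u : U => E ⟨u, hUT u.2⟩) := by
    intro x hx u u' hu
    exact hEP x hx _ _ hu
  -- Glauberman in the quotient
  have hU' : ∀ t, t ∈ U ↔ t ∈ T ∧ ∀ x ∈ P, x * t * x⁻¹ * t⁻¹ ∈ Q := by
    intro t
    rw [hU, hT, mem_inf, mem_inf, hC]
    tauto
  have hbU := bar_inf_centralizer μ hμ hPM hU'
  have hcop' : (Nat.card (bar μ T)).Coprime (Nat.card (bar μ P)) := by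
    obtain ⟨k, hk⟩ := (IsPGroup.iff_card).1 (isPGroup_bar μ hP)
    rw [hk, card_bar μ hμ hTM]
    apply Nat.Coprime.pow_right
    exact ((Nat.Prime.coprime_iff_not_dvd hp.out).2 (fun h => hpK (h.trans hdvd))).symm
  have hG : Glaub p (bar μ T) (bar μ P) (bar μ U) (bar_mono μ hUT) :=
    glaub_pgroup p _ (bar μ T) (bar μ P) le_rfl (isPGroup_bar μ hP) (bar_le_normalizer μ hPT)
      hcop' (bar μ U) hbU (bar_mono μ hUT)
  have hγinv : ∀ γ : bar μ U → ℂ, ∀ s ∈ bar μ P, InvUnder (bar μ U) s γ := by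
    intro γ s hs
    apply (centralizer_le_stabSub (bar μ U) γ _).2
    rw [mem_centralizer_iff]
    intro u hu
    rw [SetLike.mem_coe, hbU, mem_inf, mem_centralizer_iff] at hu
    exact (hu.2 s hs).symm
  -- the two parametrisations
  have KD := trel_exists_down μ hμ hQK hKQ hθ hT hQT hTK hTM hE hEθ
  have KU := trel_exists_up μ hμ hQK hKQ hθ hT hQT hTK hTM hE hEθ
  have KO := trel_over μ hμ hQK hKQ hθ hT hQT hTK hTM hE hEθ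
  have Kd := trel_unique_down μ hμ hQK hKQ hθ hT hQT hTK hTM hE hEθ
  have Ku := trel_unique_up μ hμ hQK hKQ hθ hT hQT hTK hTM hE hEθ
  have KI := trel_inv_iff μ hμ hQK hKQ hθ hT hQT hTK hTM hE hEθ hPM hPK hPT hEP
  have CD := trel_exists_down μ hμ hQC hCQ hθ hU hQU hUC (hUT.trans hTM) hEU hEUθ
  have CU := trel_exists_up μ hμ hQC hCQ hθ hU hQU hUC (hUT.trans hTM) hEU hEUθ
  have CO := trel_over μ hμ hQC hCQ hθ hU hQU hUC (hUT.trans hTM) hEU hEUθ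
  have Cd := trel_unique_down μ hμ hQC hCQ hθ hU hQU hUC (hUT.trans hTM) hEU hEUθ
  have Cu := trel_unique_up μ hμ hQC hCQ hθ hU hQU hUC (hUT.trans hTM) hEU hEUθ
  have CI := trel_inv_iff μ hμ hQC hCQ hθ hU hQU hUC (hUT.trans hTM) hEU hEUθ hPM hPC hPU hEUP
  have F := trel_formula μ hμ hQC hCK hKQ hθ hT hU hQU hUT hUC hTK hTM hE hEθ
  refine ⟨?_, ?_, ?_⟩
  · intro χ hχP hχo
    obtain ⟨β, hβ⟩ := KD χ hχo
    obtain ⟨γ₀, ε, hε, hM⟩ := hG.data β ((KI χ β hβ).1 hχP)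
    obtain ⟨ξ₀, hξ₀⟩ := CU γ₀
    refine ⟨ξ₀, (CI ξ₀ γ₀ hξ₀).2 (hγinv _), CO ξ₀ γ₀ hξ₀, ε, hε, ?_⟩
    intro ξ' hξ'o
    obtain ⟨γ', hγ'⟩ := CD ξ' hξ'o
    obtain ⟨m, hm, m1, m2⟩ := hM γ'
    refine ⟨m, by rw [F χ β ξ' γ' hβ hγ']; exact hm, ?_, ?_⟩
    · intro e
      subst e
      exact m1 (Cd ξ' γ₀ γ' hξ₀ hγ')
    · intro hne
      apply m2
      intro e
      subst e
      exact hne (Cu ξ₀ ξ' γ' hξ₀ hγ')
  · intro χ χ' hχP hχ'P hχo hχ'o ξ hξo h1 h2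
    obtain ⟨β, hβ⟩ := KD χ hχo
    obtain ⟨β', hβ'⟩ := KD χ' hχ'o
    obtain ⟨γ, hγ⟩ := CD ξ hξo
    have e : β = β' := by
      apply hG.inj β β' ((KI χ β hβ).1 hχP) ((KI χ' β' hβ').1 hχ'P) γ
      · obtain ⟨m, hm, hpm⟩ := h1
        exact ⟨m, by rw [← F χ β ξ γ hβ hγ]; exact hm, hpm⟩
      · obtain ⟨m, hm, hpm⟩ := h2
        exact ⟨m, by rw [← F χ' β' ξ γ hβ' hγ]; exact hm, hpm⟩
    subst e
    exact Ku χ' χ β hβ' hβ
  · intro ξ hξo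
    obtain ⟨γ, hγ⟩ := CD ξ hξo
    obtain ⟨β, hβP, m, hm, hpm⟩ := hG.surj γ
    obtain ⟨χ, hχ⟩ := KU β
    exact ⟨χ, (KI χ β hχ).2 hβP, m, by rw [F χ β ξ γ hχ hγ]; exact hm, hpm⟩

end Cfsg.Agent.Lib.Helper77
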