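import Mathlib
import Cfsg.Agent.Lib.Helper77.ThetaMain

/-!
# `p`-group acting on a group with a normal Sylow `p`-subgroup: the character correspondence
-/

set_option autoImplicit false
set_option linter.unusedSectionVars false

namespace Cfsg.Agent.Lib.Helper77

open Subgroup Cfsg Cfsg.Agent.Lib.Helper20 Cfsg.Agent.Lib.Helper19 Cfsg.Agent.Lib.Helper79
  Cfsg.Agent.Lib.Helper5
open scoped ComplexConjugate

variable {Γ : Type*} [Group Γ] [Finite Γ]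

theorem normSyl_prelim (p : ℕ) [hp : Fact p.Prime] (P K Q C : Subgroup Γ)
    (hPK : P ≤ normalizer (K : Set Γ)) (hQK : Q ≤ K) (hQn : ∀ k ∈ K, ∀ q ∈ Q, k * q * k⁻¹ ∈ Q)
    (hQp : ∃ a : ℕ, Nat.card Q = p ^ a) (hQsyl : ¬ p ∣ Q.relIndex K)
    (hC : ∀ k : Γ, k ∈ C ↔ (k ∈ K ∧ ∀ x ∈ P, x * k * x⁻¹ * k⁻¹ ∈ Q)) :
    K ≤ normalizer (Q : Set Γ) ∧ P ≤ normalizer (Q : Set Γ) ∧ Q ≤ C ∧
      P ≤ normalizer (C : Set Γ) ∧ (Nat.card Q).Coprime (Q.relIndex K) := by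
  obtain ⟨a, ha⟩ := hQp
  have hKQ : K ≤ normalizer (Q : Set Γ) := le_normalizer_of_norm Q K hQn
  have hcop : (Nat.card Q).Coprime (Q.relIndex K) := by
    rw [ha]
    exact Nat.Coprime.pow_left a ((Nat.Prime.coprime_iff_not_dvd hp.out).2 hQsyl)
  have hN : (Q.subgroupOf K).Normal := normal_subgroupOf_of_le_normalizer hKQ
  have hPQ : P ≤ normalizer (Q : Set Γ) := by
    apply le_normalizer_of_norm
    intro x hx q hq
    have hy : x * q * x⁻¹ ∈ K := (mem_normalizer_iff.1 (hPK hx) _).1 (hQK hq)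
    have hq1 : q ^ (Nat.card Q) = 1 := by
      have := pow_card_eq_one' (x := (⟨q, hq⟩ : Q))
      exact congrArg Subtype.val this
    have hy1 : (⟨x * q * x⁻¹, hy⟩ : K) ^ (Nat.card Q) = 1 := by
      apply Subtype.ext
      show (x * q * x⁻¹) ^ (Nat.card Q) = 1
      rw [conj_pow, hq1]; group
    set z : K ⧸ Q.subgroupOf K := QuotientGroup.mk ⟨x * q * x⁻¹, hy⟩ with hz
    have h1 : orderOf z ∣ Nat.card Q := by
      apply orderOf_dvd_of_pow_eq_one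
      rw [hz, ← QuotientGroup.mk_pow, hy1]; rfl
    have h2 : orderOf z ∣ Q.relIndex K := orderOf_dvd_natCard z
    have h3 : (orderOf z).Coprime (orderOf z) :=
      Nat.Coprime.coprime_dvd_left h1 (Nat.Coprime.coprime_dvd_right h2 hcop)
    have h4 : z = 1 := orderOf_eq_one_iff.1 ((Nat.coprime_self _).1 h3)
    exact mem_subgroupOf.1 ((QuotientGroup.eq_one_iff _).1 h4)
  have hPQ' : ∀ x ∈ P, ∀ q ∈ Q, x * q * x⁻¹ ∈ Q := fun x hx q hq =>
    (mem_normalizer_iff.1 (hPQ hx) _).1 hq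
  refine ⟨hKQ, hPQ, ?_, ?_, hcop⟩
  · intro q hq
    exact (hC q).2 ⟨hQK hq, fun x hx => Q.mul_mem (hPQ' x hx q hq) (Q.inv_mem hq)⟩
  · apply le_normalizer_of_norm
    intro y hy c hc
    obtain ⟨h1, h2⟩ := (hC c).1 hc
    refine (hC _).2 ⟨(mem_normalizer_iff.1 (hPK hy) _).1 h1, ?_⟩
    intro x hx
    have e : x * (y * c * y⁻¹) * x⁻¹ * (y * c * y⁻¹)⁻¹ =
        ((x * y) * c * (x * y)⁻¹ * c⁻¹) * (y * c * y⁻¹ * c⁻¹)⁻¹ := by group
    rw [e]
    exact Q.mul_mem (h2 _ (P.mul_mem hx hy)) (Q.inv_mem (h2 y hy))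

theorem classInner_bot_one [Fintype (⊥ : Subgroup Γ)] (φ : (⊥ : Subgroup Γ) → ℂ) :
    classInner φ (fun _ => 1) = φ 1 := by
  unfold classInner
  rw [Fintype.sum_unique]
  simp
  rfl

/-- conjugating the character on the normal subgroup by an element of the group does not change
the multiplicity -/
theorem inner_comp_cjAut_of_mem {X Q : Subgroup Γ} [Fintype Q] (hQX : Q ≤ X)
    (hXQ : X ≤ normalizer (Q : Set Γ)) {ξ : X → ℂ} (hξ : IsCharacter X ξ) (θ : Q → ℂ) (c : Γ)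
    (hc : c ∈ X) :
    classInner (fun q : Q => ξ ⟨q, hQX q.2⟩) (θ ∘ cjAut Q c (hXQ hc)) =
      classInner (fun q : Q => ξ ⟨q, hQX q.2⟩) θ := by
  have e := inner_cj hQX c (le_normalizer hc) (hXQ hc) ξ θ
  rw [comp_cjAut_self hξ c hc] at e
  exact e

theorem normSyl_main (p : ℕ) [hp : Fact p.Prime] (P K Q C : Subgroup Γ) [Fintype C]
    (hP : IsPGroup p P)
    (hPK : P ≤ normalizer (K : Set Γ)) (hQK : Q ≤ K) (hQn : ∀ k ∈ K, ∀ q ∈ Q, k * q * k⁻¹ ∈ Q)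
    (hQp : ∃ a : ℕ, Nat.card Q = p ^ a) (hQsyl : ¬ p ∣ Q.relIndex K) (hCK : C ≤ K)
    (hC : ∀ k : Γ, k ∈ C ↔ (k ∈ K ∧ ∀ x ∈ P, x * k * x⁻¹ * k⁻¹ ∈ Q)) :
    (∀ χ : IrrCharacter K, (∀ x ∈ P, InvUnder K x (χ : K → ℂ)) →
      ∃ ξ : IrrCharacter C, (∀ x ∈ P, InvUnder C x (ξ : C → ℂ)) ∧ ∃ ε : ℤ, (ε = 1 ∨ ε = -1) ∧
        (∀ ξ' : IrrCharacter C, (∀ x ∈ P, InvUnder C x (ξ' : C → ℂ)) →
          ∃ m : ℕ, classInner (fun c : C => (χ : K → ℂ) ⟨c, hCK c.2⟩) (ξ' : C → ℂ) = m ∧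
            (ξ' = ξ → (m : ZMod p) = (ε : ZMod p)) ∧ (ξ' ≠ ξ → (m : ZMod p) = 0)) ∧
        (charDegree (χ : K → ℂ) : ZMod p) = (ε : ZMod p) * (charDegree (ξ : C → ℂ) : ZMod p)) ∧
    (∀ χ χ' : IrrCharacter K, (∀ x ∈ P, InvUnder K x (χ : K → ℂ)) →
      (∀ x ∈ P, InvUnder K x (χ' : K → ℂ)) →
      ∀ ξ : IrrCharacter C, (∀ x ∈ P, InvUnder C x (ξ : C → ℂ)) →
      PCorr p hCK (χ : K → ℂ) (ξ : C → ℂ) → PCorr p hCK (χ' : K → ℂ) (ξ : C → ℂ) → χ = χ') ∧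
    (∀ ξ : IrrCharacter C, (∀ x ∈ P, InvUnder C x (ξ : C → ℂ)) →
      ∃ χ : IrrCharacter K, (∀ x ∈ P, InvUnder K x (χ : K → ℂ)) ∧
        PCorr p hCK (χ : K → ℂ) (ξ : C → ℂ)) := by
  classical
  obtain ⟨hKQ, hPQ, hQC, hPC, hcop⟩ := normSyl_prelim p P K Q C hPK hQK hQn hQp hQsyl hC
  have : Fintype Q := Fintype.ofFinite _
  have hCQ : C ≤ normalizer (Q : Set Γ) := hCK.trans hKQ
  have hNM : (Q.subgroupOf (normalizer (Q : Set Γ))).Normal :=
    normal_subgroupOf_of_le_normalizer le_rfl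
  have hTh : ∀ θ : IrrCharacter Q, (∀ x ∈ P, InvUnder Q x (θ : Q → ℂ)) →
      ThetaCorr p P K C Q hQC hCK (θ : Q → ℂ) := fun θ hθP =>
    thetaCorr (QuotientGroup.mk' (Q.subgroupOf (normalizer (Q : Set Γ))))
      (fun m => by rw [QuotientGroup.mk'_apply, QuotientGroup.eq_one_iff, mem_subgroupOf])
      p P K C hP hPK hPC hPQ hQC hCK hKQ hKQ hPQ hcop hQsyl hC θ.2 hθP
  have hsolv : Group.IsSolvable P := by
    have := hP.isNilpotent
    infer_instance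
  obtain ⟨k, hk⟩ := IsPGroup.iff_card.1 hP
  have hcopK : (Nat.card P).Coprime (Q.relIndex K) := by
    rw [hk]
    exact Nat.Coprime.pow_left k ((Nat.Prime.coprime_iff_not_dvd hp.out).2 hQsyl)
  have hcopC : (Nat.card P).Coprime (Q.relIndex C) :=
    Nat.Coprime.coprime_dvd_right ⟨_, (relIndex_mul_relIndex Q C K hQC hCK).symm⟩ hcopK
  have hNK : (Q.subgroupOf K).Normal := normal_subgroupOf_of_le_normalizer hKQ
  have hNC : (Q.subgroupOf C).Normal := normal_subgroupOf_of_le_normalizer hCQ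
  have underK := fun (χ : IrrCharacter K) => exists_inv_under K P Q hQK hKQ hPK hPQ hcopK
    (Or.inl hsolv) χ.2
  have underC := fun (ξ : IrrCharacter C) => exists_inv_under C P Q hQC hCQ hPC hPQ hcopC
    (Or.inl hsolv) ξ.2
  have pcorr_ne : ∀ (χ : IrrCharacter K) (ξ : IrrCharacter C),
      PCorr p hCK (χ : K → ℂ) (ξ : C → ℂ) →
      classInner (fun c : C => (χ : K → ℂ) ⟨c, hCK c.2⟩) (ξ : C → ℂ) ≠ 0 := by
    rintro χ ξ ⟨m, hm, hpm⟩
    rw [hm]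
    intro h0
    have : m = 0 := by exact_mod_cast h0
    exact hpm (this ▸ dvd_zero p)
  refine ⟨?_, ?_, ?_⟩
  · intro χ hχP
    have hχc := isCharacter_of_isIrrCharacter χ.2
    obtain ⟨θ, hθo, hθP⟩ := underK χ hχP
    obtain ⟨ξ, hξP, hξo, ε, hε, hdata⟩ := (hTh θ hθP).data χ hχP hθo
    have hfull : ∀ ξ' : IrrCharacter C, (∀ x ∈ P, InvUnder C x (ξ' : C → ℂ)) →
          ∃ m : ℕ, classInner (fun c : C => (χ : K → ℂ) ⟨c, hCK c.2⟩) (ξ' : C → ℂ) = m ∧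
            (ξ' = ξ → (m : ZMod p) = (ε : ZMod p)) ∧ (ξ' ≠ ξ → (m : ZMod p) = 0) := by
      intro ξ' hξ'P
      by_cases hov : classInner (fun q : Q => (ξ' : C → ℂ) ⟨q, hQC q.2⟩) (θ : Q → ℂ) ≠ 0
      · exact hdata ξ' hov
      · have h0 : classInner (fun c : C => (χ : K → ℂ) ⟨c, hCK c.2⟩) (ξ' : C → ℂ) = 0 := by
          by_contra hne
          apply hov
          obtain ⟨θ', hθ'o, hθ'P⟩ := underC ξ' hξ'P
          have h1 := inner_res_ne_zero_trans hCK hQC hχc ξ' θ'.2 hne hθ'o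
          obtain ⟨c, hcK, hc1, hc2⟩ := inv_under_conj K P Q hQK hKQ hPK hPQ hcopK (Or.inl hsolv)
            χ.2 θ θ' hθo h1 hθP hθ'P
          have hcC : c ∈ C := (hC c).2 ⟨hcK, hc1⟩
          rw [hc2] at hθ'o
          rw [← inner_comp_cjAut_of_mem hQC hCQ (isCharacter_of_isIrrCharacter ξ'.2) _ c hcC]
          exact hθ'o
        refine ⟨0, by rw [h0]; simp, ?_, fun _ => by simp⟩
        intro e
        exact absurd hξo (e ▸ hov)
    refine ⟨ξ, hξP, ε, hε, hfull, ?_⟩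
    -- degrees
    have := finite_irrCharacter (G := C)
    have := Fintype.ofFinite (IrrCharacter C)
    have : Fintype (⊥ : Subgroup Γ) := Fintype.ofFinite _
    have ha : ∀ φ : IrrCharacter C, ∃ a : ℕ,
        classInner (fun c : C => (χ : K → ℂ) ⟨c, hCK c.2⟩) (φ : C → ℂ) = a := fun φ =>
      isCharacter_classInner_nat (isCharacter_res hCK hχc) φ.2
    choose a ha using ha
    have hone : IsIrrCharacter (⊥ : Subgroup Γ) (fun _ => (1 : ℂ)) :=
      Cfsg.Agent.Lib.Helper82.isChar_linear_isIrr isCharacter_one rfl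
    obtain ⟨m, hm1, hm2⟩ := inner_res_orbit (p := p) (N' := ⊥) hCK bot_le hP hPK hPC
      (by
        intro x _
        rw [mem_centralizer_iff]
        intro h hh
        have : h = 1 := hh
        rw [this]; simp) hχc hχP ⟨_, hone⟩ a (fun φ => charDegree (φ : C → ℂ)) ha
      (fun φ => by
        rw [classInner_bot_one]
        exact Cfsg.Agent.Lib.Helper82.isChar_one_eq (isCharacter_of_isIrrCharacter φ.2))
    rw [classInner_bot_one] at hm1
    have hm3 : charDegree (χ : K → ℂ) = m := by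
      have h1 : (χ : K → ℂ) 1 = m := hm1
      rw [Cfsg.Agent.Lib.Helper82.isChar_one_eq hχc] at h1
      exact_mod_cast h1
    rw [hm3, hm2, Finset.sum_eq_single ξ]
    · obtain ⟨m', h1, h2, -⟩ := hfull ξ hξP
      have : a ξ = m' := by
        have : (a ξ : ℂ) = m' := by rw [← ha, h1]
        exact_mod_cast this
      rw [this, h2 rfl]
    · intro φ hφ hne
      obtain ⟨m', h1, -, h2⟩ := hfull φ (Finset.mem_filter.1 hφ).2
      have : a φ = m' := by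
        have : (a φ : ℂ) = m' := by rw [← ha, h1]
        exact_mod_cast this
      rw [this, h2 hne, zero_mul]
    · intro h
      exact absurd (Finset.mem_filter.2 ⟨Finset.mem_univ _, hξP⟩) h
  · intro χ χ' hχP hχ'P ξ hξP h1 h2
    obtain ⟨θ, hθo, hθP⟩ := underC ξ hξP
    exact (hTh θ hθP).inj χ χ' hχP hχ'P
      (inner_res_ne_zero_trans hCK hQC (isCharacter_of_isIrrCharacter χ.2) ξ θ.2
        (pcorr_ne χ ξ h1) hθo)
      (inner_res_ne_zero_trans hCK hQC (isCharacter_of_isIrrCharacter χ'.2) ξ θ.2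
        (pcorr_ne χ' ξ h2) hθo) ξ hθo h1 h2
  · intro ξ hξP
    obtain ⟨θ, hθo, hθP⟩ := underC ξ hξP
    exact (hTh θ hθP).surj ξ hθo

end Cfsg.Agent.Lib.Helper77
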