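import Mathlib
import Cfsg.Prelude.Def_CaseTheorems
import Cfsg.Agent.Lib.Helper77.SectRank

set_option autoImplicit false

namespace Cfsg.Agent.Lib.Helper77

open Subgroup

theorem pRankLE_of_mulEquiv {p k : ℕ} {A B : Type*} [Group A] [Group B] (e : A ≃* B)
    (h : Cfsg.PRankLE p k B) : Cfsg.PRankLE p k A := by
  intro X hX hXp
  have h1 := h (X.map e.toMonoidHom) ⟨⟨?_⟩⟩ ?_
  · rwa [card_map_of_injective e.injective] at h1
  · rintro ⟨_, a, ha, rfl⟩ ⟨_, b, hb, rfl⟩
    apply Subtype.ext
    show e.toMonoidHom a * e.toMonoidHom b = e.toMonoidHom b * e.toMonoidHom a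
    rw [← map_mul, ← map_mul]
    congr 1
    exact congrArg Subtype.val (hX.is_comm.comm ⟨a, ha⟩ ⟨b, hb⟩)
  · rintro _ ⟨a, ha, rfl⟩
    rw [← map_pow, hXp a ha, map_one]

/-- Bounds on the sectional rank pass to subgroups. -/
theorem sectionalPRankLE_subgroup {p k : ℕ} {S : Type*} [Group S] (hr : Cfsg.SectionalPRankLE p k S)
    (T : Subgroup S) : Cfsg.SectionalPRankLE p k T := by
  intro H N hN
  let e : H ≃* H.map T.subtype := H.equivMapOfInjective T.subtype T.subtype_injective
  have hN' : (N.map e.toMonoidHom).Normal := hN.map _ e.surjective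
  exact pRankLE_of_mulEquiv (QuotientGroup.congr N (N.map e.toMonoidHom) e rfl) (hr _ _)

theorem sectionalPRankLE_of_mulEquiv {p k : ℕ} {A B : Type*} [Group A] [Group B] (e : A ≃* B)
    (h : Cfsg.SectionalPRankLE p k B) : Cfsg.SectionalPRankLE p k A := by
  intro H N hN
  let e' : H ≃* H.map e.toMonoidHom := H.equivMapOfInjective e.toMonoidHom e.injective
  have hN' : (N.map e'.toMonoidHom).Normal := hN.map _ e'.surjective
  exact pRankLE_of_mulEquiv (QuotientGroup.congr N (N.map e'.toMonoidHom) e' rfl) (h _ _)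

end Cfsg.Agent.Lib.Helper77
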