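import Mathlib

set_option autoImplicit false

/-! Orders of `p`-elements in affine groups of degree `p ^ m`. -/

namespace Cfsg.Agent.Lib.Helper77

open Module

section alg

variable (F : Type*) {A : Type*} [Field F] [Ring A] [Algebra F A] {p : ℕ} [hp : Fact p.Prime]
  [CharP F p]

include F in
theorem sub_one_pow_char_pow' (Y : A) (m : ℕ) : (Y - 1) ^ (p ^ m) = Y ^ (p ^ m) - 1 := by
  have hpoly : ((Polynomial.X : Polynomial F) - 1) ^ (p ^ m) = Polynomial.X ^ (p ^ m) - 1 := by
    rw [sub_pow_char_pow, one_pow]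
  simpa using congrArg (Polynomial.aeval Y) hpoly

include F in
theorem geom_sum_char_pow (Y : A) (k : ℕ) :
    ∑ i ∈ Finset.range (p ^ k), Y ^ i = (Y - 1) ^ (p ^ k - 1) := by
  have hpoly : ∑ i ∈ Finset.range (p ^ k), (Polynomial.X : Polynomial F) ^ i
      = ((Polynomial.X : Polynomial F) - 1) ^ (p ^ k - 1) := by
    have hne : ((Polynomial.X : Polynomial F) - 1) ≠ 0 := by
      have := Polynomial.X_sub_C_ne_zero (1 : F)
      simpa using this
    apply mul_left_cancel₀ hne
    rw [mul_geom_sum, ← pow_succ', Nat.sub_add_cancel (Nat.one_le_pow _ _ hp.1.pos),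
      sub_pow_char_pow, one_pow]
  simpa using congrArg (Polynomial.aeval Y) hpoly

end alg

theorem geom_sum_end_eq_zero {p : ℕ} [hp : Fact p.Prime] {V : Type*} [AddCommGroup V]
    [Module (ZMod p) V] [FiniteDimensional (ZMod p) V] (φ : Module.End (ZMod p) V) (r k m : ℕ)
    (hφ : φ ^ (p ^ r) = 1) (hm : finrank (ZMod p) V ≤ m) (hk : m < p ^ k) :
    ∑ i ∈ Finset.range (p ^ k), φ ^ i = 0 := by
  rw [geom_sum_char_pow (ZMod p)]
  have h0 : (φ - 1) ^ (p ^ r) = 0 := by
    rw [sub_one_pow_char_pow' (ZMod p), hφ, sub_self]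
  have h1 := Module.End.ker_pow_le_ker_pow_finrank (φ - 1 : Module.End (ZMod p) V) (p ^ r)
  rw [h0, LinearMap.ker_zero, top_le_iff, LinearMap.ker_eq_top] at h1
  exact pow_eq_zero_of_le (by omega) h1


theorem affine_core {G : Type*} [Group G] {Ω : Type*} [MulAction G Ω]
    [FaithfulSMul G Ω] (p m : ℕ) [hp : Fact p.Prime] {V : Type*} [AddCommGroup V]
    [Module (ZMod p) V] [FiniteDimensional (ZMod p) V] (hrank : finrank (ZMod p) V ≤ m)
    (ι : V → G) (hι0 : ι 0 = 1) (hιadd : ∀ a b, ι (a + b) = ι a * ι b)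
    (hιinj : Function.Injective ι) (htr : ∀ ω ω' : Ω, ∃ v, ι v • ω = ω')
    (g : G) (φ : Module.End (ZMod p) V) (hφ : ∀ v, ι (φ v) = g * ι v * g⁻¹)
    (r k : ℕ) (hg : g ^ (p ^ r) = 1) (hk : m < p ^ k) : g ^ (p ^ k) = 1 := by
  have hφi : ∀ (i : ℕ) (v : V), ι ((φ ^ i) v) = g ^ i * ι v * (g ^ i)⁻¹ := by
    intro i
    induction i with
    | zero => intro v; simp
    | succ i ih =>
      intro v
      rw [pow_succ', Module.End.mul_apply, hφ, ih, pow_succ']
      group
  have hφr : φ ^ (p ^ r) = 1 := by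
    apply LinearMap.ext
    intro v
    have h1 := hφi (p ^ r) v
    rw [hg] at h1
    simp only [one_mul, inv_one, mul_one] at h1
    exact hιinj h1
  have hsum := geom_sum_end_eq_zero φ r k m hφr hrank hk
  apply FaithfulSMul.eq_of_smul_eq_smul (α := Ω)
  intro ω
  obtain ⟨n, hn⟩ := htr ω (g • ω)
  have key : ∀ j : ℕ, g ^ j • ω = ι ((∑ i ∈ Finset.range j, φ ^ i) n) • ω := by
    intro j
    induction j with
    | zero => simp [hι0]
    | succ j ih =>
      rw [pow_succ', mul_smul, ih, Finset.sum_range_succ', pow_zero]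
      have h1 : ∑ i ∈ Finset.range j, φ ^ (i + 1) = φ * ∑ i ∈ Finset.range j, φ ^ i := by
        rw [Finset.mul_sum]
        exact Finset.sum_congr rfl (fun i _ => pow_succ' φ i)
      rw [h1, LinearMap.add_apply, Module.End.mul_apply, Module.End.one_apply, hιadd, hφ,
        mul_smul, hn, ← mul_smul, ← mul_smul]
      congr 1
      group
  rw [key, hsum]
  simp [hι0]

theorem affine_pow_eq_one {G : Type*} [Group G] [Finite G] {Ω : Type*} [Fintype Ω] [MulAction G Ω]
    [FaithfulSMul G Ω] (p m : ℕ) [hp : Fact p.Prime] (hcard : Fintype.card Ω = p ^ m)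
    (N : Subgroup G) [N.Normal] (hc : IsMulCommutative N) (hNp : ∀ n ∈ N, n ^ p = 1)
    (hNtr : MulAction.IsPretransitive N Ω) (hNreg : ∀ ω : Ω, MulAction.stabilizer N ω = ⊥)
    (g : G) (r k : ℕ) (hg : g ^ (p ^ r) = 1) (hk : m < p ^ k) : g ^ (p ^ k) = 1 := by
  let iC : CommGroup N := { (inferInstance : Group N) with mul_comm := hc.is_comm.comm }
  have hV : ∀ v : Additive N, p • v = 0 := by
    intro v
    have h1 : (Additive.toMul v) ^ p = 1 := by
      apply Subtype.ext
      rw [Subgroup.coe_pow]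
      exact hNp _ (Additive.toMul v).2
    exact congrArg Additive.ofMul h1
  let iM : Module (ZMod p) (Additive N) := AddCommGroup.zmodModule hV
  have hfin : Finite (Additive N) := inferInstanceAs (Finite N)
  have hfd : @FiniteDimensional (ZMod p) (Additive N) _ _ iM := Module.Finite.of_finite
  have hne : Nonempty Ω := by
    rw [← Fintype.card_pos_iff, hcard]
    exact Nat.pow_pos hp.1.pos
  have hinj : ∀ ω₀ : Ω, Function.Injective (fun n : N => n • ω₀) := by
    intro ω₀ a b hab
    have h1 : (b⁻¹ * a) • ω₀ = ω₀ := by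
      rw [mul_smul]
      have : a • ω₀ = b • ω₀ := hab
      rw [this, inv_smul_smul]
    have h2 : b⁻¹ * a ∈ MulAction.stabilizer N ω₀ := h1
    rw [hNreg, Subgroup.mem_bot] at h2
    exact (inv_mul_eq_one.1 h2).symm
  have hcN : Nat.card (Additive N) ≤ p ^ m := by
    rw [← hcard, ← Nat.card_eq_fintype_card]
    exact Nat.card_le_card_of_injective _ (hinj (Classical.choice hne))
  have hrank : @finrank (ZMod p) (Additive N) _ _ iM ≤ m := by
    have h1 := @Module.natCard_eq_pow_finrank (ZMod p) (Additive N) _ _ iM hfd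
    rw [Nat.card_zmod] at h1
    rw [h1] at hcN
    exact (Nat.pow_le_pow_iff_right hp.1.one_lt).1 hcN
  exact @affine_core G _ Ω _ _ p m hp (Additive N) _ iM hfd hrank
    (fun v => ((Additive.toMul v : N) : G)) rfl (fun a b => rfl)
    (fun a b h => Additive.toMul.injective (Subtype.ext h))
    (fun ω ω' => by
      obtain ⟨n, hn⟩ := hNtr.exists_smul_eq ω ω'
      exact ⟨Additive.ofMul n, hn⟩)
    g (@AddMonoidHom.toZModLinearMap p (Additive N) (Additive N) _ _ iM iM
      (MonoidHom.toAdditive (MulAut.conjNormal g : MulAut N).toMonoidHom))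
    (fun v => rfl) r k hg hk

end Cfsg.Agent.Lib.Helper77
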