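import Mathlib

set_option autoImplicit false

namespace Cfsg.Agent.Lib.Helper77

open Subgroup

theorem mem_sup_of_commute {S : Type*} [Group S] {P Q : Subgroup S}
    (h : ∀ a ∈ P, ∀ b ∈ Q, a * b = b * a) {g : S} (hg : g ∈ P ⊔ Q) : ∃ a ∈ P, ∃ b ∈ Q, g = a * b := by
  rw [sup_eq_closure] at hg
  induction hg using closure_induction with
  | mem x hx =>
    rcases hx with hx | hx
    · exact ⟨x, hx, 1, one_mem _, by simp⟩
    · exact ⟨1, one_mem _, x, hx, by simp⟩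
  | one => exact ⟨1, one_mem _, 1, one_mem _, by simp⟩
  | mul x y _ _ hx hy =>
    obtain ⟨a, ha, b, hb, rfl⟩ := hx
    obtain ⟨a', ha', b', hb', rfl⟩ := hy
    refine ⟨a * a', mul_mem ha ha', b * b', mul_mem hb hb', ?_⟩
    calc a * b * (a' * b') = a * (b * a') * b' := by group
      _ = a * (a' * b) * b' := by rw [h a' ha' b hb]
      _ = a * a' * (b * b') := by group
  | inv x _ hx =>
    obtain ⟨a, ha, b, hb, rfl⟩ := hx
    refine ⟨a⁻¹, inv_mem ha, b⁻¹, inv_mem hb, ?_⟩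
    rw [mul_inv_rev, h a⁻¹ (inv_mem ha) b⁻¹ (inv_mem hb)]

theorem card_sup_of_commute {S : Type*} [Group S] {P Q : Subgroup S}
    (h : ∀ a ∈ P, ∀ b ∈ Q, a * b = b * a) (hPQ : P ⊓ Q = ⊥) :
    Nat.card (P ⊔ Q : Subgroup S) = Nat.card P * Nat.card Q := by
  rw [← Nat.card_prod]
  symm
  refine Nat.card_congr (Equiv.ofBijective
    (fun ab : P × Q => (⟨ab.1 * ab.2, mul_mem (mem_sup_left ab.1.2) (mem_sup_right ab.2.2)⟩ : (P ⊔ Q : Subgroup S)))
    ⟨?_, ?_⟩)
  · rintro ⟨a, b⟩ ⟨a', b'⟩ hab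
    have h1 : (a : S) * b = a' * b' := congrArg Subtype.val hab
    have h2 : (a' : S)⁻¹ * a = b' * (b : S)⁻¹ := by
      calc (a' : S)⁻¹ * a = (a' : S)⁻¹ * (a * b) * (b : S)⁻¹ := by group
        _ = (a' : S)⁻¹ * (a' * b') * (b : S)⁻¹ := by rw [h1]
        _ = b' * (b : S)⁻¹ := by group
    have h3 : (a' : S)⁻¹ * a ∈ P ⊓ Q :=
      mem_inf.2 ⟨mul_mem (inv_mem a'.2) a.2, h2 ▸ mul_mem b'.2 (inv_mem b.2)⟩
    rw [hPQ, mem_bot] at h3
    have h4 : (a : S) = a' := (inv_mul_eq_one.1 h3).symm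
    have h5 : (b : S) = b' := by
      rw [h4] at h1; exact mul_left_cancel h1
    exact Prod.ext (Subtype.ext h4) (Subtype.ext h5)
  · rintro ⟨g, hg⟩
    obtain ⟨a, ha, b, hb, rfl⟩ := mem_sup_of_commute h hg
    exact ⟨(⟨a, ha⟩, ⟨b, hb⟩), rfl⟩

theorem card_comap_mk'' {H : Type*} [Group H] [Finite H] (N : Subgroup H) [N.Normal] (A : Subgroup (H ⧸ N)) :
    Nat.card (A.comap (QuotientGroup.mk' N)) = Nat.card A * Nat.card N := by
  have h1 : (A.comap (QuotientGroup.mk' N)).index = A.index :=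
    index_comap_of_surjective A (QuotientGroup.mk'_surjective N)
  have h2 := (A.comap (QuotientGroup.mk' N)).card_mul_index
  have h3 := A.card_mul_index
  have h4 := N.card_mul_index
  have h5 : N.index = Nat.card (H ⧸ N) := rfl
  have hpos : 0 < A.index := Nat.pos_of_ne_zero (FiniteIndex.index_ne_zero)
  rw [h1] at h2
  apply Nat.eq_of_mul_eq_mul_right hpos
  rw [h2, ← h4, h5, ← h3]; ring

/-- A subgroup of order two. -/
theorem exists_of_card_two {S : Type*} [Group S] (Z : Subgroup S) (hZ : Nat.card Z = 2) :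
    ∃ z : S, z ≠ 1 ∧ z * z = 1 ∧ ∀ w, w ∈ Z ↔ w = 1 ∨ w = z := by
  obtain ⟨w, hw1, hw⟩ := (Nat.card_eq_two_iff' (1 : Z)).1 hZ
  have hz1 : (w : S) ≠ 1 := fun h => hw1 (Subtype.ext h)
  have hmem : ∀ v, v ∈ Z ↔ v = 1 ∨ v = (w : S) := by
    intro v
    constructor
    · intro hv
      by_cases h1 : v = 1
      · exact Or.inl h1
      · right
        exact congrArg Subtype.val (hw ⟨v, hv⟩ (fun h => h1 (congrArg Subtype.val h)))
    · rintro (rfl | rfl)
      · exact one_mem Z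
      · exact w.2
  refine ⟨w, hz1, ?_, hmem⟩
  rcases (hmem _).1 (mul_mem w.2 w.2) with h | h
  · exact h
  · exact absurd (by simpa using h) hz1

end Cfsg.Agent.Lib.Helper77
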