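import Mathlib
import Cfsg.Agent.Lib.Helper77.CliffRel
import Cfsg.Agent.Lib.Helper77.CoprimeDeg2
import Cfsg.Agent.Lib.Helper5.LinExt
import Cfsg.Agent.Lib.Helper32.DegBound
import Cfsg.Agent.Lib.Helper53.Cop
import Cfsg.Agent.S0081

/-!
# The intersection of the kernels of the irreducible characters of `p'`-degree
-/

set_option autoImplicit false
set_option linter.unusedSectionVars false

namespace Cfsg.Agent.Lib.Helper77

open Subgroup Cfsg Cfsg.Agent.Lib.Helper20 Cfsg.Agent.Lib.Helper19 Cfsg.Agent.Lib.Helper79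
  Cfsg.Agent.Lib.Helper5
open scoped ComplexConjugate commutatorElement

theorem isIrr_one_fun {G : Type*} [Group G] [Finite G] : IsIrrCharacter G (fun _ => (1 : ℂ)) :=
  Cfsg.Agent.Lib.Helper82.isChar_linear_isIrr isCharacter_one rfl

/-- `X = K H`, `H` a `p`-group acting coprimely and without fixed points on `K`: the irreducible
characters of `p'`-degree are trivial on `K`. -/
theorem trivial_on_of_pprime_degree {X : Type*} [Group X] [Fintype X] (p : ℕ) [hp : Fact p.Prime]
    (K H : Subgroup X) [hK : K.Normal] [Fintype K] (hKH : K ⊔ H = ⊤) (hH : IsPGroup p H)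
    (hcop : (Nat.card K).Coprime (Nat.card H)) (hC : K ⊓ centralizer (H : Set X) = ⊥)
    {η : X → ℂ} (hη : IsIrrCharacter X η) (hpη : ¬ p ∣ charDegree η) : ∀ k : K, η k = 1 := by
  have hidx := index_eq_card_of_sup_top K H hKH hcop
  obtain ⟨k, hk⟩ := IsPGroup.iff_card.1 hH
  have hirr : IsIrrCharacter K (fun k : K => η k) := by
    apply (coprime_degree_iff K H hidx hcop hη).1
    rw [hk]
    exact Nat.Coprime.pow_right k ((Nat.Prime.coprime_iff_not_dvd hp.out).2 hpη).symm
  have hsolv : Group.IsSolvable H := by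
    have := hH.isNilpotent
    infer_instance
  have hHK : H ≤ normalizer (K : Set X) := by rw [normalizer_eq_top]; exact le_top
  have hcount := card_inv_irr_solv H hsolv K hHK hcop
  rw [hC, card_irrCharacter] at hcount
  have h1 : Nat.card (ConjClasses (⊥ : Subgroup X)) = 1 := by
    have : Subsingleton (ConjClasses (⊥ : Subgroup X)) := by
      constructor
      intro a b
      obtain ⟨a, rfl⟩ := ConjClasses.exists_rep a
      obtain ⟨b, rfl⟩ := ConjClasses.exists_rep b
      rw [Subsingleton.elim a b]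
    exact Nat.card_unique
  rw [h1] at hcount
  have := finite_irrCharacter (G := K)
  have hsub : Subsingleton {χ : IrrCharacter K // ∀ s ∈ H, InvUnder K s (χ : K → ℂ)} :=
    (Nat.card_eq_one_iff_unique.1 hcount).1
  have e := hsub.elim ⟨⟨_, hirr⟩, fun s _ g g' hg => by
      show η g' = η g
      rw [hg]
      exact Cfsg.Agent.Lib.Helper82.isChar_conj_eq (isCharacter_of_isIrrCharacter hη) _ _⟩
    ⟨⟨_, isIrr_one_fun⟩, fun s _ g g' _ => rfl⟩
  intro k
  exact congrFun (congrArg (fun z => (z.1 : K → ℂ)) e) k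

theorem sup_subgroupOf_eq_top {G : Type*} [Group G] (A B : Subgroup G) :
    A.subgroupOf (A ⊔ B) ⊔ B.subgroupOf (A ⊔ B) = ⊤ := by
  rw [← subgroupOf_sup le_sup_left le_sup_right, subgroupOf_self]

section Main

variable {G : Type*} [Group G] [Finite G] (p : ℕ) [hp : Fact p.Prime] (P : Sylow p G)

/-- a normal subgroup in which `P` has no fixed points is a `p'`-group -/
theorem not_dvd_card_of_inf_centralizer (N : Subgroup G) [hN : N.Normal]
    (hNC : N ⊓ centralizer ((P : Subgroup G) : Set G) = ⊥) : ¬ p ∣ Nat.card N := by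
  intro hdvd
  obtain ⟨x, hx⟩ := exists_prime_orderOf_dvd_card' p hdvd
  have hxp : IsPGroup p (zpowers (x : G)) := by
    apply IsPGroup.of_card (n := 1)
    rw [Nat.card_zpowers, orderOf_coe, hx, pow_one]
  obtain ⟨Q, hQ⟩ := hxp.exists_le_sylow
  obtain ⟨g, hg⟩ := MulAction.exists_smul_eq G Q P
  have hxQ : (x : G) ∈ Q := hQ (mem_zpowers _)
  have hy : g * x * g⁻¹ ∈ (P : Subgroup G) := by
    rw [← hg, Sylow.coe_subgroup_smul, Subgroup.mem_pointwise_smul_iff_inv_smul_mem]
    have e : (MulAut.conj g)⁻¹ • (g * (x : G) * g⁻¹) = (x : G) := by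
      simp [MulAut.smul_def, mul_assoc]
    rw [e]
    exact hxQ
  have hyN : g * x * g⁻¹ ∈ N := hN.conj_mem _ x.2 g
  have hne : N.subgroupOf (P : Subgroup G) ≠ ⊥ := by
    intro h
    have h1 : (⟨g * x * g⁻¹, hy⟩ : (P : Subgroup G)) ∈ N.subgroupOf (P : Subgroup G) :=
      mem_subgroupOf.2 hyN
    rw [h, mem_bot] at h1
    have h2 : g * x * g⁻¹ = 1 := congrArg Subtype.val h1
    have h3 : (x : G) = 1 := by
      have : (x : G) = g⁻¹ * (g * x * g⁻¹) * g := by group
      rw [this, h2]; group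
    have h4 : x = 1 := Subtype.ext h3
    rw [h4, orderOf_one] at hx
    exact hp.out.one_lt.ne hx
  have hnorm : (N.subgroupOf (P : Subgroup G)).Normal := hN.subgroupOf _
  apply Cfsg.Agent.Lib.Helper3.normal_inf_center_ne_bot' P.2 _ hne
  rw [eq_bot_iff]
  intro z hz
  obtain ⟨hz1, hz2⟩ := mem_inf.1 hz
  have h1 : (z : G) ∈ N ⊓ centralizer ((P : Subgroup G) : Set G) := by
    refine mem_inf.2 ⟨mem_subgroupOf.1 hz1, ?_⟩
    rw [mem_centralizer_iff]
    intro h hh
    have := mem_center_iff.1 hz2 ⟨h, hh⟩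
    exact congrArg Subtype.val this
  rw [hNC, mem_bot] at h1
  exact Subtype.ext h1

theorem coprime_card_of_not_dvd {N : Subgroup G} (h : ¬ p ∣ Nat.card N) :
    (Nat.card N).Coprime (Nat.card (P : Subgroup G)) := by
  obtain ⟨k, hk⟩ := IsPGroup.iff_card.1 P.2
  rw [hk]
  exact Nat.Coprime.pow_right k ((Nat.Prime.coprime_iff_not_dvd hp.out).2 h).symm

/-- `core(N P') ≤ ker χ` for `χ` of `p'`-degree -/
theorem ker_of_le_sup_commutator (N : Subgroup G) [hN : N.Normal]
    (hNC : N ⊓ centralizer ((P : Subgroup G) : Set G) = ⊥) (M : Subgroup G) [hM : M.Normal]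
    (hMle : M ≤ N ⊔ ⁅(P : Subgroup G), (P : Subgroup G)⁆) {χ : G → ℂ} (hχ : IsIrrCharacter G χ)
    (hpχ : ¬ p ∣ charDegree χ) : ∀ m ∈ M, χ m = χ 1 := by
  classical
  have : Fintype G := Fintype.ofFinite _
  have hχc := isCharacter_of_isIrrCharacter hχ
  obtain ⟨W, hW⟩ : ∃ W, W = N ⊔ (P : Subgroup G) := ⟨_, rfl⟩
  have hNW : N ≤ W := hW ▸ le_sup_left
  have hPW : (P : Subgroup G) ≤ W := hW ▸ le_sup_right
  have : Fintype W := Fintype.ofFinite _
  have : Fintype M := Fintype.ofFinite _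
  have : Fintype (N.subgroupOf W) := Fintype.ofFinite _
  obtain ⟨η, hη1, hη2⟩ := exists_constituent_not_dvd (p := p) (φ := fun w : W => χ w)
    (isCharacter_restrict hχc W) hpχ
  have hKn : (N.subgroupOf W).Normal := hN.subgroupOf W
  have hcopN := coprime_card_of_not_dvd p P (not_dvd_card_of_inf_centralizer p P N hNC)
  have htriv := trivial_on_of_pprime_degree p (N.subgroupOf W) ((P : Subgroup G).subgroupOf W)
    (by subst hW; exact sup_subgroupOf_eq_top _ _)
    (P.2.comap_subtype)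
    (by
      rw [Nat.card_congr (subgroupOfEquivOfLe hNW).toEquiv,
        Nat.card_congr (subgroupOfEquivOfLe hPW).toEquiv]
      exact hcopN)
    (by
      rw [eq_bot_iff]
      intro w hw
      obtain ⟨h1, h2⟩ := mem_inf.1 hw
      have h3 : (w : G) ∈ N ⊓ centralizer ((P : Subgroup G) : Set G) := by
        refine mem_inf.2 ⟨mem_subgroupOf.1 h1, ?_⟩
        rw [mem_centralizer_iff]
        intro h hh
        have := mem_centralizer_iff.1 h2 ⟨h, hPW hh⟩ (mem_subgroupOf.2 hh)
        exact congrArg Subtype.val this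
      rw [hNC, mem_bot] at h3
      exact Subtype.ext h3) η.2 hη2
  have hη1' : (η : W → ℂ) 1 = 1 := htriv 1
  obtain ⟨f, hf⟩ := exists_hom_of_linear (η : W → ℂ) ⟨isCharacter_of_isIrrCharacter η.2, hη1'⟩
  have hNZ : N ≤ f.ker.map W.subtype := by
    intro n hn
    refine mem_map.2 ⟨⟨n, hNW hn⟩, ?_, rfl⟩
    rw [MonoidHom.mem_ker]
    have := htriv ⟨⟨n, hNW hn⟩, mem_subgroupOf.2 hn⟩
    rw [hf] at this
    exact Units.ext this
  have hPZ : ⁅(P : Subgroup G), (P : Subgroup G)⁆ ≤ f.ker.map W.subtype := by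
    rw [commutator_le]
    intro a ha b hb
    refine mem_map.2 ⟨⁅(⟨a, hPW ha⟩ : W), ⟨b, hPW hb⟩⁆, ?_, rfl⟩
    rw [MonoidHom.mem_ker, map_commutatorElement]
    exact commutatorElement_eq_one_iff_mul_comm.2 (mul_comm _ _)
  have hMZ : M ≤ f.ker.map W.subtype := hMle.trans (sup_le hNZ hPZ)
  have hMW : M ≤ W := hMZ.trans (map_subtype_le _)
  have hηM : (fun d : M => (η : W → ℂ) ⟨d, hMW d.2⟩) = fun _ => 1 := by
    funext d
    obtain ⟨w, hw, hwd⟩ := mem_map.1 (hMZ d.2)
    have : (⟨d, hMW d.2⟩ : W) = w := Subtype.ext hwd.symm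
    rw [this, hf, homFun_apply, MonoidHom.mem_ker.1 hw]
    rfl
  have hcon : classInner (fun d : M => χ d) (fun _ => (1 : ℂ)) ≠ 0 := by
    apply inner_res_ne_zero_trans (A := ⊤) (B := W) (D := M) le_top hMW
      (χ := fun x : (⊤ : Subgroup G) => χ x) (isCharacter_restrict hχc ⊤) η isIrr_one_fun hη1
    rw [hηM, classInner_irr_self isIrr_one_fun]
    exact one_ne_zero
  obtain ⟨e, -, he, -⟩ := restrict_eq_smul_of_invariant M hχ isIrr_one_fun hcon (fun _ _ => rfl)
  intro m hm
  have h1 := congrFun he ⟨m, hm⟩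
  have h2 := congrFun he 1
  simp only [Pi.smul_apply, smul_eq_mul, mul_one] at h1 h2
  rw [h1]
  exact h2.symm

/-- if `P` has nontrivial fixed points on the normal `p'`-subgroup `Y`, some irreducible character
of `p'`-degree does not contain `Y` in its kernel -/
theorem exists_pprime_not_ker (Y : Subgroup G) [hY : Y.Normal] (hpY : ¬ p ∣ Nat.card Y)
    (hYC : Y ⊓ centralizer ((P : Subgroup G) : Set G) ≠ ⊥) :
    ∃ χ : IrrCharacter G, ¬ p ∣ charDegree (χ : G → ℂ) ∧ ∃ y ∈ Y, (χ : G → ℂ) y ≠ (χ : G → ℂ) 1 := by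
  classical
  have : Fintype G := Fintype.ofFinite _
  have : Fintype Y := Fintype.ofFinite _
  have hcop := coprime_card_of_not_dvd p P hpY
  have hsolv : Group.IsSolvable (P : Subgroup G) := by
    have := P.2.isNilpotent
    infer_instance
  have hPY : (P : Subgroup G) ≤ normalizer (Y : Set G) := by rw [normalizer_eq_top]; exact le_top
  have hcount := card_inv_irr_solv (P : Subgroup G) hsolv Y hPY hcop
  rw [card_irrCharacter] at hcount
  have := finite_irrCharacter (G := Y)
  -- a nontrivial invariant character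
  obtain ⟨θ, hθP, hθ1⟩ : ∃ θ : IrrCharacter Y, (∀ s ∈ (P : Subgroup G), InvUnder Y s (θ : Y → ℂ)) ∧
      (θ : Y → ℂ) ≠ fun _ => 1 := by
    by_contra hcon
    have hsub : Subsingleton {χ : IrrCharacter Y // ∀ s ∈ (P : Subgroup G), InvUnder Y s (χ : Y → ℂ)} := by
      constructor
      intro a b
      have ha : (a.1 : Y → ℂ) = fun _ => 1 := by
        by_contra h; exact hcon ⟨a.1, a.2, h⟩
      have hb : (b.1 : Y → ℂ) = fun _ => 1 := by
        by_contra h; exact hcon ⟨b.1, b.2, h⟩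
      exact Subtype.ext (Subtype.ext (ha.trans hb.symm))
    have h1 : Nat.card (ConjClasses (Y ⊓ centralizer ((P : Subgroup G) : Set G) : Subgroup G)) ≤ 1 := by
      rw [← hcount]
      exact Finite.card_le_one_iff_subsingleton.2 hsub
    have h2 := Finite.card_le_one_iff_subsingleton.1 h1
    apply hYC
    rw [eq_bot_iff]
    intro c hc
    have h3 := h2.elim (ConjClasses.mk (⟨c, hc⟩ : (Y ⊓ centralizer ((P : Subgroup G) : Set G) : Subgroup G)))
      (ConjClasses.mk 1)
    have h4 := isConj_one_left.1 (ConjClasses.mk_eq_mk_iff_isConj.1 h3)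
    exact congrArg Subtype.val h4
  obtain ⟨W, hW⟩ : ∃ W, W = Y ⊔ (P : Subgroup G) := ⟨_, rfl⟩
  have hYW : Y ≤ W := hW ▸ le_sup_left
  have hPW : (P : Subgroup G) ≤ W := hW ▸ le_sup_right
  have : Fintype W := Fintype.ofFinite _
  have : Fintype (Y.subgroupOf W) := Fintype.ofFinite _
  have hKn : (Y.subgroupOf W).Normal := hY.subgroupOf W
  have hKH : Y.subgroupOf W ⊔ (P : Subgroup G).subgroupOf W = ⊤ := by
    subst hW; exact sup_subgroupOf_eq_top _ _
  have hcop' : (Nat.card (Y.subgroupOf W)).Coprime (Nat.card ((P : Subgroup G).subgroupOf W)) := by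
    rw [Nat.card_congr (subgroupOfEquivOfLe hYW).toEquiv,
      Nat.card_congr (subgroupOfEquivOfLe hPW).toEquiv]
    exact hcop
  obtain ⟨E, hE1, hE2⟩ := exists_ext_coprime (Y.subgroupOf W) ((P : Subgroup G).subgroupOf W) hKH
    (index_eq_card_of_sup_top _ _ hKH hcop') hcop'
    (θ := (θ : Y → ℂ) ∘ subgroupOfEquivOfLe hYW) (isIrrCharacter_comp_equiv _ θ.2) (by
      intro h hh g g' hg
      exact hθP (h : G) (mem_subgroupOf.1 hh) _ _ (congrArg Subtype.val hg))
  have hEc := isCharacter_of_isIrrCharacter hE1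
  have hEval : ∀ y : Y, E ⟨y, hYW y.2⟩ = (θ : Y → ℂ) y := fun y =>
    hE2 ⟨⟨y, hYW y.2⟩, mem_subgroupOf.2 y.2⟩
  have hdeg : charDegree E = charDegree (θ : Y → ℂ) := by
    unfold charDegree
    rw [show E 1 = (θ : Y → ℂ) 1 from hEval 1]
  obtain ⟨d, hd1, hd2, -⟩ := irr_degree_dvd θ.2
  have hdθ : charDegree (θ : Y → ℂ) = d := by
    have := Cfsg.Agent.Lib.Helper82.isChar_one_eq (isCharacter_of_isIrrCharacter θ.2)
    rw [hd1] at this
    exact_mod_cast this.symm
  have hpind : ¬ p ∣ charDegree (indFun W E) := by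
    rw [Cfsg.Agent.Lib.Helper82.charDegree_indFun W hEc, hdeg, hdθ]
    intro h
    rcases (Nat.Prime.dvd_mul hp.out).1 h with h | h
    · exact P.not_dvd_index (h.trans (index_dvd_of_le hPW))
    · exact hpY (h.trans hd2)
  obtain ⟨χ, hχ1, hχ2⟩ := exists_constituent_not_dvd (p := p)
    (isCharacter_indFun W E hEc) hpind
  have hχc := isCharacter_of_isIrrCharacter χ.2
  refine ⟨χ, hχ2, ?_⟩
  by_contra hcon
  have hker : ∀ y ∈ Y, (χ : G → ℂ) y = (χ : G → ℂ) 1 := by
    intro y hy
    by_contra h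
    exact hcon ⟨y, hy, h⟩
  rw [frobenius_reciprocity W E χ (isClassFunction_of_isCharacter hχc),
    ← classInner_conj_symm] at hχ1
  have hχ1' : classInner (fun w : W => (χ : G → ℂ) w) E ≠ 0 := by simpa using hχ1
  have hθker : ∀ y : Y, (θ : Y → ℂ) y = (θ : Y → ℂ) 1 := by
    intro y
    rw [← hEval, ← hEval]
    exact Cfsg.Agent.Lib.Helper32.ker_of_constituent (isCharacter_restrict hχc W) hE1 hχ1'
      (b := ⟨y, hYW y.2⟩) (hker y y.2)
  apply hθ1
  by_contra hne
  have h0 := classInner_irr_ne θ.2 isIrr_one_fun hne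
  have e : (θ : Y → ℂ) = (θ : Y → ℂ) 1 • fun _ => (1 : ℂ) := by
    funext y
    rw [hθker y]; simp
  rw [e, classInner_smul_left, classInner_irr_self isIrr_one_fun, mul_one] at h0
  exact IsIrrCharacter.one_ne_zero θ.2 h0

/-- the intersection of the kernels of the irreducible characters of `p'`-degree -/
def ppKer (p : ℕ) (G : Type*) [Group G] [Finite G] : Subgroup G :=
  ⨅ χ : {χ : IrrCharacter G // ¬ p ∣ charDegree (χ : G → ℂ)},
    Cfsg.Agent.Lib.Helper82.charKer (χ.1 : G → ℂ) (isCharacter_of_isIrrCharacter χ.1.2)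

theorem mem_ppKer {g : G} : g ∈ ppKer p G ↔
    ∀ χ : IrrCharacter G, ¬ p ∣ charDegree (χ : G → ℂ) → (χ : G → ℂ) g = (χ : G → ℂ) 1 := by
  unfold ppKer
  rw [mem_iInf]
  constructor
  · intro h χ hχ
    exact h ⟨χ, hχ⟩
  · intro h χ
    exact h χ.1 χ.2

instance ppKer_normal : (ppKer p G).Normal := by
  constructor
  intro n hn g
  rw [mem_ppKer] at hn ⊢
  intro χ hχ
  rw [Cfsg.Agent.Lib.Helper82.isChar_conj_eq (isCharacter_of_isIrrCharacter χ.2), hn χ hχ]

/-- `X ∩ P ≤ P'` -/
theorem ppKer_inf_sylow_le : ppKer p G ⊓ (P : Subgroup G) ≤ ⁅(P : Subgroup G), (P : Subgroup G)⁆ := by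
  classical
  have : Fintype G := Fintype.ofFinite _
  have : Fintype (P : Subgroup G) := Fintype.ofFinite _
  intro g hg
  obtain ⟨hgX, hgP⟩ := mem_inf.1 hg
  by_contra hcon
  have h1 : (⟨g, hgP⟩ : (P : Subgroup G)) ∉ commutator (P : Subgroup G) := by
    intro h
    apply hcon
    have h2 : g ∈ (commutator (P : Subgroup G)).map (P : Subgroup G).subtype :=
      mem_map.2 ⟨_, h, rfl⟩
    rw [commutator_def, map_commutator, ← MonoidHom.range_eq_map, range_subtype] at h2
    exact h2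
  obtain ⟨lam, hl1, hl2, hl3⟩ := exists_linear_ne_one h1
  have hlirr : IsIrrCharacter (P : Subgroup G) lam :=
    Cfsg.Agent.Lib.Helper82.isChar_linear_isIrr hl1 hl2
  have hdl : charDegree lam = 1 := by
    have := Cfsg.Agent.Lib.Helper82.isChar_one_eq hl1
    rw [hl2] at this
    exact_mod_cast this.symm
  have hpind : ¬ p ∣ charDegree (indFun (P : Subgroup G) lam) := by
    rw [Cfsg.Agent.Lib.Helper82.charDegree_indFun _ hl1, hdl, mul_one]
    exact P.not_dvd_index
  obtain ⟨χ, hχ1, hχ2⟩ := exists_constituent_not_dvd (p := p)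
    (isCharacter_indFun _ lam hl1) hpind
  have hχc := isCharacter_of_isIrrCharacter χ.2
  rw [frobenius_reciprocity _ lam χ (isClassFunction_of_isCharacter hχc),
    ← classInner_conj_symm] at hχ1
  have hχ1' : classInner (fun w : (P : Subgroup G) => (χ : G → ℂ) w) lam ≠ 0 := by simpa using hχ1
  apply hl3
  rw [← hl2]
  exact Cfsg.Agent.Lib.Helper32.ker_of_constituent (isCharacter_restrict hχc _) hlirr hχ1'
    (b := ⟨g, hgP⟩) ((mem_ppKer p).1 hgX χ hχ2)

end Main

end Cfsg.Agent.Lib.Helper77
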